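import Cfsg.Agent.Pres.Orb

/-! Passing to two generators. -/

set_option autoImplicit false

namespace Cfsg.Agent.Pres

open Subgroup Cfsg.Agent.SymAlt

variable {H : Type*} [Group H]

theorem hasRels_in {Y : Type*} {r : ℕ} (h : ∃ rels : Finset (FreeGroup Y), rels.card ≤ r ∧
    Nonempty (PresentedGroup (↑rels : Set (FreeGroup Y)) ≃* H)) :
    ∃ g : Y → H, HasRels g r ∧ closure (Set.range g) = ⊤ := by
  obtain ⟨R, h1, ⟨e⟩⟩ := h
  have key : FreeGroup.lift (fun y => e (PresentedGroup.of y)) =
      e.toMonoidHom.comp (PresentedGroup.mk (R : Set (FreeGroup Y))) := by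
    ext y; simp [PresentedGroup.of]
  refine ⟨fun y => e (PresentedGroup.of y), ⟨R, h1, ?_⟩, ?_⟩
  · rw [key, MonoidHom.ker_comp_of_injective _ _ e.injective]
    exact QuotientGroup.ker_mk' _
  · rw [← FreeGroup.range_lift_eq_closure, key, MonoidHom.range_eq_top]
    exact e.surjective.comp (PresentedGroup.mk_surjective _)

theorem two_gen_out {Y : Type*} {g : Y → H} {r s : ℕ} (h : HasRels g r)
    (hg : closure (Set.range g) = ⊤) {a b : H} (hab : closure {a, b} = ⊤) (hs : r + 2 ≤ s) :
    ∃ rels : Finset (FreeGroup (Fin 2)), rels.card ≤ s ∧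
      Nonempty (PresentedGroup (↑rels : Set (FreeGroup (Fin 2))) ≃* H) := by
  have e : closure (Set.range ![a, b]) = ⊤ := by
    rw [Matrix.range_cons, Matrix.range_cons, Matrix.range_empty, Set.union_empty]; exact hab
  exact hasRels_out ((h.tietze (hg.trans e.symm)).mono (by simpa using hs)) e

theorem closure_pair_quot {N : Subgroup H} [N.Normal] {a b : H} (h : closure {a, b} ⊔ N = ⊤) :
    closure ({(a : H ⧸ N), (b : H ⧸ N)} : Set (H ⧸ N)) = ⊤ := by
  have := congrArg (map (QuotientGroup.mk' N)) h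
  rwa [Subgroup.map_sup, QuotientGroup.map_mk'_self, sup_bot_eq, MonoidHom.map_closure,
    Set.image_pair, map_top_of_surjective _ (QuotientGroup.mk'_surjective _)] at this

end Cfsg.Agent.Pres
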