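import Cfsg.Agent.Pres.Basic

/-! Relations for an additive group with a torus acting by squares. -/

set_option autoImplicit false

namespace Cfsg.Agent.Pres

open Subgroup Cfsg.Agent.SL2Pres

variable {X : Type} {H K : Type*} [Group H] [Field K] [Fintype K] {f : X → H}

theorem exists_quad (p : ℕ) [Fact p.Prime] [Algebra (ZMod p) K] (h : Fintype.card K ≤ p ^ 2)
    (y : K) : ∃ a b : ℕ, y ^ 2 = a + b * y := by
  by_cases hinj : Function.Injective
      (fun x : ZMod p × ZMod p => algebraMap (ZMod p) K x.1 + algebraMap (ZMod p) K x.2 * y)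
  · have hb := (Fintype.bijective_iff_injective_and_card _).2 ⟨hinj, le_antisymm
      (Fintype.card_le_of_injective _ hinj) (by rw [Fintype.card_prod, ZMod.card]; nlinarith)⟩
    obtain ⟨⟨x, z⟩, e⟩ := hb.2 (y ^ 2)
    refine ⟨x.val, z.val, ?_⟩
    rw [← e, ← map_natCast (algebraMap (ZMod p) K), ← map_natCast (algebraMap (ZMod p) K),
      ZMod.natCast_zmod_val, ZMod.natCast_zmod_val]
  · simp only [Function.Injective, not_forall] at hinj
    obtain ⟨⟨x, z⟩, ⟨x', z'⟩, e, hne⟩ := hinj
    have hy : z - z' ≠ 0 := by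
      intro hy
      rw [sub_eq_zero] at hy
      subst hy
      exact hne (Prod.ext ((algebraMap (ZMod p) K).injective (add_right_cancel e)) rfl)
    have hy' : algebraMap (ZMod p) K (z - z') ≠ 0 := (_root_.map_ne_zero _).2 hy
    have e' : y = algebraMap (ZMod p) K ((x' - x) / (z - z')) := by
      rw [map_div₀, eq_div_iff hy', map_sub, map_sub]
      linear_combination e
    refine ⟨0, ((x' - x) / (z - z')).val, ?_⟩
    rw [← map_natCast (algebraMap (ZMod p) K) (ZMod.val _), ZMod.natCast_zmod_val, ← e']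
    simp [sq]

/-- five relations for a torus acting by squares -/
theorem cost_add_sq {x : K → H} {g u : FreeGroup X} {ζ : Kˣ} (hζ : orderOf ζ = Fintype.card K - 1)
    (hx : IsAdd x (FreeGroup.lift f g) (FreeGroup.lift f u) ((ζ : K) ^ 2)) :
    Cost f 5 fun C => ∃ φ : K → C.G, IsAdd φ (C.ev g) (C.ev u) ((ζ : K) ^ 2) := by
  obtain ⟨p, hp⟩ := CharP.exists K
  have : Fact p.Prime := ⟨CharP.char_is_prime K p⟩
  let _ : Algebra (ZMod p) K := ZMod.algebra K p
  by_cases h2 : (2 : K) = 0
  · have h3 : orderOf (ζ ^ 2) = Fintype.card K - 1 := by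
      rw [← hζ]
      refine Nat.Coprime.orderOf_pow ?_
      have h4 := FiniteField.even_card_of_char_two (F := K) (CharP.ringChar_of_prime_eq_zero Nat.prime_two h2)
      have := Fintype.card_pos (α := K)
      rw [hζ, Nat.coprime_two_right, Nat.odd_iff]; omega
    exact (cost_add h3 hx).le (by omega)
  refine cost_add_of (r := 3) hx (spans_sq hζ) ?_
  have hz := ζ.ne_zero
  have cm : ∀ k, Cost f 1 fun C => Commute (C.ev u) (cj (C.ev g ^ k) 1 (C.ev u)) := fun k =>
    (cost_commute u (cj (g ^ k) 1 u) (by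
      rw [map_cj, map_pow, cj_pow, ← hx.one, phi_cj hx.conj]; exact hx.commute _ _)).imp
      fun C hC => by rwa [map_cj, map_pow] at hC
  by_cases hq : 9 < Fintype.card K
  · have hk0 : ((ζ : K) - (ζ : K)⁻¹) / 2 ≠ 0 := by
      intro e
      have : (ζ : K) ^ 2 = 1 := by field_simp at e; linear_combination e
      have := Nat.le_of_dvd (by omega) (dvd_of_pow_eq_one hζ this)
      omega
    have hl0 : ((ζ : K) + (ζ : K)⁻¹) / 2 ≠ 0 := by
      intro e
      have : (ζ : K) ^ 4 = 1 := by field_simp at e; linear_combination ((ζ : K) ^ 2 - 1) * e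
      have := Nat.le_of_dvd (by omega) (dvd_of_pow_eq_one hζ this)
      omega
    obtain ⟨k, hk⟩ := exists_pow_eq hζ hk0
    obtain ⟨l, hl⟩ := exists_pow_eq hζ hl0
    obtain ⟨c, n, hc⟩ := exists_coeffs p (surj_baumslag p hζ h2 hq) ((ζ : K) ^ 2)
    have e : ∀ j a, FreeGroup.lift f g ^ j * x a * (FreeGroup.lift f g ^ j)⁻¹ =
        x (((ζ : K) ^ j) ^ 2 * a) := fun j a => by rw [hx.conj_pow, ← pow_mul, ← pow_mul, mul_comm j]
    refine ((cm k).and ((cost_eq (g ^ l * u * (g ^ l)⁻¹) (u * cj (g ^ k) 1 u) ?_).and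
      (cost_eq (g * u * g⁻¹) (cw u (g ^ k) c n) ?_))).imp ?_
    · simp only [map_mul, map_inv, map_cj, map_pow, ← hx.one, phi_cj (e k), e, ← hx.add, hk, hl]
      congr 1
      field_simp
      ring
    · simp only [map_mul, map_inv, map_cw, map_pow, ← hx.one, phi_cw hx.add (e k), hx.conj, hk,
        ← hc, mul_one]
    · rintro C ⟨e2, e3, e5⟩
      simp only [map_mul, map_inv, map_cj, map_cw, map_pow] at e3 e5
      exact commute_of_word (Commute.pow_left (Commute.refl _) k)
        (baumslag ((Commute.refl _).pow_pow k l) e2 e3) e5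
  · have hp3 : 3 ≤ p := by
      have := (Fact.out : p.Prime).two_le
      have : p ≠ 2 := by
        rintro rfl
        exact h2 (by exact_mod_cast CharP.cast_eq_zero K 2)
      omega
    obtain ⟨a, b, hab⟩ := exists_quad p (by nlinarith) ((ζ : K) ^ 2)
    refine ((cm 1).and (cost_eq (cj g 2 u) (u ^ a * cj g 1 u ^ b) ?_)).mono (by omega) ?_
    · simp only [map_mul, map_cj, map_pow, ← hx.one, phi_cj hx.conj, ← phi_nsmul hx.add, ← hx.add,
        hab, mul_one, pow_one]
    · rintro C ⟨e2, e3⟩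
      simp only [map_mul, map_cj, map_pow, pow_one] at e2 e3
      exact commute_of_deg_two e2 e3

end Cfsg.Agent.Pres
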