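import Cfsg.Agent.Pres.Basic

/-! Relations for a Heisenberg group with a torus acting on it. -/

set_option autoImplicit false
set_option linter.unusedSectionVars false

namespace Cfsg.Agent.Pres

open Subgroup Cfsg.Agent.SL2Pres
open scoped commutatorElement

universe u

variable {F K : Type*} [Field F] [Fintype F] [Field K] [Fintype K]

theorem map_lift2 {G H : Type*} [Group G] [Group H] (φ : G →* H) (g u : G) (w : FreeGroup (Fin 2)) :
    φ (FreeGroup.lift ![g, u] w) = FreeGroup.lift ![φ g, φ u] w :=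
  DFunLike.congr_fun (FreeGroup.ext_hom (φ.comp (FreeGroup.lift ![g, u])) (FreeGroup.lift ![φ g, φ u])
    fun i => by fin_cases i <;> simp) w

theorem exists_add_words {ζ : Fˣ} (hζ : orderOf ζ = Fintype.card F - 1) (h1 : 1 + (ζ : F) ≠ 0) :
    ∃ l : List (FreeGroup (Fin 2)), l.length = 3 ∧
      (∀ (H : Type u) [Group H] (x : F → H) g u, IsAdd x g u (ζ : F) →
        ∀ w ∈ l, FreeGroup.lift ![g, u] w = 1) ∧
      ∀ (G : Type) [Group G] (g u : G), Commute u (g * u * g⁻¹) →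
        (∀ w ∈ l, FreeGroup.lift ![g, u] w = 1) → ∃ φ : F → G, IsAdd φ g u (ζ : F) := by
  obtain ⟨p, hp⟩ := CharP.exists F
  have : Fact p.Prime := ⟨CharP.char_is_prime F p⟩
  let _ : Algebra (ZMod p) F := ZMod.algebra F p
  obtain ⟨j, hj⟩ := exists_pow_eq hζ h1
  refine ⟨[.of 0 ^ j * .of 1 * (.of 0 ^ j)⁻¹ * (.of 1 * cj (.of 0) 1 (.of 1))⁻¹, .of 1 ^ p,
    cw (.of 1) (.of 0) (fun i => ((minpoly (ZMod p) (ζ : F)).coeff i).val)
      ((minpoly (ZMod p) (ζ : F)).natDegree + 1)], rfl, fun H _ x g u hx => ?_, fun G _ g u h2 h => ?_⟩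
  · simp only [List.forall_mem_cons, map_mul, map_inv, map_pow, map_cj, map_cw,
      FreeGroup.lift_apply_of, Matrix.cons_val_zero, Matrix.cons_val_one, mul_inv_eq_one, ← hx.one]
    refine ⟨?_, ?_, ?_, by simp⟩
    · rw [hx.conj_pow, phi_cj hx.conj, ← hx.add, hj]; simp
    · rw [← phi_nsmul hx.add, CharP.cast_eq_zero, zero_mul, phi_zero hx.add]
    · rw [phi_cw hx.add hx.conj, sum_minpoly, phi_zero hx.add]
  · simp only [List.forall_mem_cons, map_mul, map_inv, map_pow, map_cj, map_cw,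
      FreeGroup.lift_apply_of, Matrix.cons_val_zero, Matrix.cons_val_one, mul_inv_eq_one] at h
    obtain ⟨φ, e1, e2, e3⟩ := exists_phi p (ζ : F) (surj_of_spans p (spans_prim hζ)) h.2.1
      (baumslag ((Commute.refl _).pow_right j) (by rwa [cj_one]) h.1) (Nat.lt_succ_self _) h.2.2.1
    exact ⟨φ, e1, e2, e3⟩

/-- the normalizer modulo a subgroup -/
abbrev NQ {G : Type*} [Group G] (Z : Subgroup G) :=
  normalizer (Z : Set G) ⧸ Z.subgroupOf (normalizer (Z : Set G))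

/-- the class of an element of the normalizer -/
abbrev nq {G : Type*} [Group G] {Z : Subgroup G} {g : G} (h : g ∈ normalizer (Z : Set G)) : NQ Z :=
  QuotientGroup.mk' _ ⟨g, h⟩

theorem lift_nq {G : Type*} [Group G] {Z : Subgroup G} {g u : G} (hg : g ∈ normalizer (Z : Set G))
    (hu : u ∈ normalizer (Z : Set G)) (w : FreeGroup (Fin 2)) :
    FreeGroup.lift ![nq hg, nq hu] w = 1 ↔ FreeGroup.lift ![g, u] w ∈ Z := by
  rw [← map_lift2, QuotientGroup.mk'_apply, QuotientGroup.eq_one_iff, mem_subgroupOf,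
    ← coe_subtype, map_lift2]; rfl

theorem nq_eq_one {G : Type*} [Group G] {Z : Subgroup G} {g : G}
    (hg : g ∈ normalizer (Z : Set G)) : nq hg = 1 ↔ g ∈ Z :=
  QuotientGroup.eq_one_iff (N := Z.subgroupOf (normalizer (Z : Set G))) ⟨g, hg⟩

theorem comm_pow_left {G : Type*} [Group G] {a b : G} (h : Commute ⁅a, b⁆ a) (n : ℕ) :
    ⁅a ^ n, b⁆ = ⁅a, b⁆ ^ n := by
  induction n with
  | zero => simp
  | succ n ih =>
    rw [pow_succ', commutatorElement_mul_left_eq_conj_mul, ih, ← (h.pow_left n).eq,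
      mul_inv_cancel_right, pow_succ]

variable {X : Type} {H : Type u} [Group H] {f : X → H}

theorem cost_minpoly (p : ℕ) [Fact p.Prime] [CharP K p] {x : K → H} {g u : FreeGroup X} {c : K}
    (hx : IsAdd x (FreeGroup.lift f g) (FreeGroup.lift f u) c) (hc : Spans c) :
    Cost f 1 fun C => C.ev u ^ p = 1 → (∀ i, Commute (C.ev u) (cj (C.ev g) i (C.ev u))) →
      ∃ φ : K → C.G, IsAdd φ (C.ev g) (C.ev u) c := by
  let _ : Algebra (ZMod p) K := ZMod.algebra K p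
  refine (cost_one (cw u g (fun i => ((minpoly (ZMod p) c).coeff i).val)
      ((minpoly (ZMod p) c).natDegree + 1)) (by
    rw [map_cw, ← hx.one, phi_cw hx.add hx.conj, sum_minpoly, phi_zero hx.add])).imp
    fun C k3 k2 k1 => ?_
  rw [map_cw] at k3
  obtain ⟨φ, e1, e2, e3⟩ := exists_phi p c (surj_of_spans p hc) k2 k1 (Nat.lt_succ_self _) k3
  exact ⟨φ, e1, e2, e3⟩

theorem heis_central {G : Type*} [Group G] {g u z : G} {n : ℕ} (hn : 0 < n) (h0 : Commute (g ^ n) z)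
    (h1 : g * u * g⁻¹ ∈ AG (g ^ n) u) (h2 : Commute z u) :
    (∀ a ∈ AG g z, ∀ b ∈ AG g u, Commute a b) ∧ g ∈ normalizer (AG g z : Set G) := by
  have k0 : ∀ b ∈ AG g u, b ∈ AG (g ^ n) u := by
    have : ∀ b ∈ AG (g ^ n) u, g * b * g⁻¹ ∈ AG (g ^ n) u := fun b hb => by
      induction hb using closure_induction with
      | mem x hx =>
        obtain ⟨i, rfl⟩ := hx
        have e : g * cj (g ^ n) i u * g⁻¹ = cj (g ^ n) i (g * u * g⁻¹) := by
          simp only [cj]; group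
        simp only [e]
        clear e
        induction i with
        | zero => rwa [cj_zero]
        | succ i ih => rw [cj_succ]; exact conj_mem_AG ih
      | one => simp
      | mul x y _ _ hx hy => simpa [mul_assoc] using mul_mem hx hy
      | inv x _ hx => simpa [mul_assoc] using inv_mem hx
    refine fun b hb => (closure_le _).2 ?_ hb
    rintro _ ⟨i, rfl⟩
    induction i with
    | zero => simpa [cj_zero] using self_mem_AG _ _
    | succ i ih => simp only [cj_succ]; exact this _ ih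
  have k1 : ∀ b ∈ AG g u, Commute z b := fun b hb =>
    mem_centralizer_singleton_iff.1 ((closure_le (K := centralizer {z})).2 (by
      rintro _ ⟨i, rfl⟩
      have := conj_commute ((g ^ n) ^ i) h2
      rw [(h0.pow_left i).eq, mul_inv_cancel_right] at this
      exact mem_centralizer_singleton_iff.2 this.symm) (k0 b hb)) |>.symm
  obtain ⟨n, rfl⟩ := Nat.exists_eq_add_of_lt hn
  rw [zero_add] at *
  have k3 : ∀ {x : G} (i : ℕ), ∀ b ∈ AG g x, g ^ i * b * (g ^ i)⁻¹ ∈ AG g x := fun i b hb => by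
    induction i with
    | zero => simpa
    | succ i ih => simpa [pow_succ', mul_assoc] using conj_mem_AG ih
  have k4 : ∀ a ∈ AG g z, Commute a (g ^ (n + 1)) := fun a ha =>
    mem_centralizer_singleton_iff.1 ((closure_le (K := centralizer {g ^ (n + 1)})).2 (by
      rintro _ ⟨i, rfl⟩
      exact mem_centralizer_singleton_iff.2 ((((Commute.refl g).pow_pow _ _).mul_left
        h0.symm).mul_left ((Commute.refl g).pow_pow _ _).inv_left)) ha)
  refine ⟨fun a ha b hb => mem_centralizer_singleton_iff.1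
    ((closure_le (K := centralizer {b})).2 ?_ ha), RGD.mem_normalizer_iff_cj.2 (RGD.cj_eq_of_le
      (RGD.cj_le_iff.2 fun _ => conj_mem_AG) (RGD.cj_le_iff.2 fun a ha => ?_))⟩
  · rintro _ ⟨i, rfl⟩
    have := conj_commute (g ^ (n * i))⁻¹ (k1 _ (k3 (n * i) b hb))
    conv_lhs at this => rw [← mul_inv_cancel_right z ((g ^ (n + 1)) ^ i), ← (h0.pow_left i).eq]
    refine mem_centralizer_singleton_iff.2 (Commute.eq ?_)
    convert this using 1 <;> (try simp only [cj]) <;> group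
  · have := k3 n a ha
    rw [← mul_inv_cancel_right a (g ^ (n + 1)), (k4 a ha).eq]
    convert this using 1
    group

theorem cost_heis (p : ℕ) [Fact p.Prime] [CharP F p] [CharP K p] {ζ : Fˣ}
    (hζ : orderOf ζ = Fintype.card F - 1) (h1 : 1 + (ζ : F) ≠ 0) {ν : K} (hν : Spans ν) {n : ℕ}
    (hn : 0 < n) (hν' : ν ^ n = 1) {g u : FreeGroup X} {g0 u0 : H} (eg : FreeGroup.lift f g = g0)
    (eu : FreeGroup.lift f u = u0) {y : K → H} (hy : IsAdd y g0 ⁅u0, g0 * u0 * g0⁻¹⁆ ν)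
    (hy' : ∀ a, y a = 1 → a = 0) (h2 : g0 * u0 * g0⁻¹ ∈ AG (g0 ^ n) u0)
    (h3 : Commute ⁅u0, g0 * u0 * g0⁻¹⁆ u0) {Z : Subgroup H} (hZ : AG g0 ⁅u0, g0 * u0 * g0⁻¹⁆ = Z)
    (hg : g0 ∈ normalizer (Z : Set H)) (hu : u0 ∈ normalizer (Z : Set H)) {x : F → NQ Z}
    (hx : IsAdd x (nq hg) (nq hu) (ζ : F)) (hx' : ∀ a, x a = 1 → a = 0) :
    Cost f 7 fun C => AG (C.ev g) (C.ev u) ⊓ C.θ.ker = ⊥ := by
  obtain ⟨l, l1, l2, l3⟩ := exists_add_words.{u} hζ h1
  have ez : FreeGroup.lift f ⁅u, g * u * g⁻¹⁆ = ⁅u0, g0 * u0 * g0⁻¹⁆ := by simp [eg, eu]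
  have c0 := cost_commute (f := f) (g ^ n) ⁅u, g * u * g⁻¹⁆ (by
    rw [ez, map_pow, eg, Commute, SemiconjBy, ← mul_inv_eq_iff_eq_mul, ← hy.one, hy.conj_pow, hν',
      mul_one])
  have c1 := cost_mem (f := f) (g * u * g⁻¹) (AG (g ^ n) u) (by simpa [map_AG, eg, eu])
  have c2 := cost_commute (f := f) ⁅u, g * u * g⁻¹⁆ u (by rwa [ez, eu])
  have c3 := cost_list (f := f) l fun w hw => cost_mem (FreeGroup.lift ![g, u] w)
    (AG g ⁅u, g * u * g⁻¹⁆) (by
      rw [map_AG, ez, map_lift2, eg, eu, hZ, ← lift_nq hg hu]; exact l2 _ x _ _ hx w hw)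
  have c4 := cost_minpoly (f := f) p (g := g) (u := ⁅u, g * u * g⁻¹⁆) (x := y)
    (by rw [ez, eg]; exact hy) hν
  refine ((((c0.and c1).and c2).and c3).and c4).mono (by omega) ?_
  rintro C ⟨⟨⟨⟨r0, r1⟩, r2⟩, r3⟩, r4⟩
  have tg : C.θ (C.ev g) = g0 := by rw [C.comp, eg]
  have tu : C.θ (C.ev u) = u0 := by rw [C.comp, eu]
  simp only [map_commutatorElement, map_mul, map_inv, map_pow, map_AG, map_lift2] at r0 r1 r2 r3 r4
  generalize C.ev g = g at *
  generalize C.ev u = u at *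
  obtain ⟨k1, k2⟩ := heis_central hn r0 r1 r2
  have m0 := self_mem_AG g u
  have m1 := conj_mem_AG m0
  have m2 : AG g ⁅u, g * u * g⁻¹⁆ ≤ AG g u := (closure_le _).2 (by
    rintro _ ⟨i, rfl⟩
    induction i with
    | zero =>
      simp only [cj_zero]
      exact mul_mem (mul_mem (mul_mem m0 m1) (inv_mem m0)) (inv_mem m1)
    | succ i ih => simp only [cj_succ]; exact conj_mem_AG ih)
  have k3 : AG g u ≤ normalizer (AG g ⁅u, g * u * g⁻¹⁆ : Set C.G) :=
    le_normalizer_iff.2 fun b hb a ha => by rwa [← (k1 a ha b hb).eq, mul_inv_cancel_right]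
  obtain ⟨φ, hφ⟩ := l3 _ (nq k2) (nq (k3 m0)) (by
    rw [← commutatorElement_eq_one_iff_commute, ← map_inv, ← map_mul, ← map_mul,
      ← map_commutatorElement]
    exact (QuotientGroup.eq_one_iff _).2 (self_mem_AG _ _)) fun w hw => (lift_nq _ _ w).2 (r3 w hw)
  have k4 : u ^ p ∈ AG g ⁅u, g * u * g⁻¹⁆ := by
    have : nq (k3 m0) ^ p = 1 := by
      rw [← hφ.one, ← phi_nsmul hφ.add, CharP.cast_eq_zero, zero_mul, phi_zero hφ.add]
    rw [← map_pow] at this
    exact (nq_eq_one (pow_mem (k3 m0) p)).1 this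
  obtain ⟨ψ, hψ⟩ := r4 (by rw [← comm_pow_left r2]; exact (k1 _ k4 _ m1).commutator_eq)
    fun i => k1 _ (self_mem_AG _ _) _ (m2 (cj_mem_AG _ _ _))
  have k5 := hψ.inf_ker hν (θ := C.θ) (x := y) (by simpa [tg, tu]) hy'
  have k6 : (AG g ⁅u, g * u * g⁻¹⁆).map C.θ = Z := by simp [map_AG, tg, tu, hZ]
  let θ' : normalizer (AG g ⁅u, g * u * g⁻¹⁆ : Set C.G) →* normalizer (Z : Set H) :=
    (C.θ.comp (Subgroup.subtype _)).codRestrict _ fun a => k6 ▸ le_normalizer_map _ ⟨_, a.2, rfl⟩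
  let θ'' : NQ (AG g ⁅u, g * u * g⁻¹⁆) →* NQ Z :=
    QuotientGroup.map _ _ θ' fun a ha => k6.le ⟨_, ha, rfl⟩
  have k7 := hφ.inf_ker (spans_prim hζ) (θ := θ'') (x := x) (by
    convert hx using 1 <;> exact congrArg _ (Subtype.ext (by assumption))) hx'
  rw [eq_bot_iff]
  rintro a ⟨a1, a2⟩
  have a3 : nq (k3 a1) ∈ AG (nq k2) (nq (k3 m0)) := by
    rw [← map_AG]
    refine ⟨_, (mem_map_iff_mem (subtype_injective _)).1 ?_, rfl⟩
    rwa [map_AG]
  exact k5.le ⟨(nq_eq_one (k3 a1)).1 (k7.le ⟨a3, (nq_eq_one (θ' ⟨a, k3 a1⟩).2).2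
    (by change C.θ a ∈ Z; rw [a2]; exact one_mem _)⟩), a2⟩

theorem isAdd_nq {Z : Subgroup H} {x : F → H} (hx : ∀ a, x a ∈ normalizer (Z : Set H)) {g : H}
    (hg : g ∈ normalizer (Z : Set H)) {c : F} (h1 : ∀ a b, (x (a + b))⁻¹ * (x a * x b) ∈ Z)
    (h2 : ∀ a, (g * x a * g⁻¹)⁻¹ * x (c * a) ∈ Z) : IsAdd (fun a => nq (hx a)) (nq hg) (nq (hx 1)) c :=
  ⟨fun a b => QuotientGroup.eq.2 (h1 a b), rfl, fun a => QuotientGroup.eq.2 (h2 a)⟩

end Cfsg.Agent.Pres
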