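import Cfsg.Agent.Pres.Heis

/-! Relations for a Heisenberg group with a torus that is not transitive on the quotient. -/

set_option autoImplicit false
set_option linter.unusedSectionVars false

namespace Cfsg.Agent.Pres

open Subgroup Cfsg.Agent.SL2Pres
open scoped commutatorElement

universe u

variable {F K : Type*} [Field F] [Fintype F] [Field K] [Fintype K]

/-- words that force all conjugates to commute -/
def CommWords (c : F) (r : ℕ) : Prop :=
  ∃ l : List (FreeGroup (Fin 2)), l.length = r ∧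
    (∀ (H : Type u) [Group H] (x : F → H) g u, IsAdd x g u c →
      ∀ w ∈ l, FreeGroup.lift ![g, u] w = 1) ∧
    ∀ (G : Type) [Group G] (g u : G), Commute u (g * u * g⁻¹) →
      (∀ w ∈ l, FreeGroup.lift ![g, u] w = 1) → ∀ i, Commute u (cj g i u)

theorem commWords_baum {s : F} {n j : ℕ} (h1 : Spans (s ^ n)) (h2 : s ^ j = 1 + s ^ n) :
    CommWords.{u} s 3 := by
  obtain ⟨p, hp⟩ := CharP.exists F
  have : Fact p.Prime := ⟨CharP.char_is_prime F p⟩
  let _ : Algebra (ZMod p) F := ZMod.algebra F p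
  obtain ⟨c, m, hc⟩ := exists_coeffs p (surj_of_spans p h1) s
  refine ⟨[.of 0 ^ j * .of 1 * (.of 0 ^ j)⁻¹ * (.of 1 * cj (.of 0 ^ n) 1 (.of 1))⁻¹,
    ⁅FreeGroup.of (1 : Fin 2), cj (FreeGroup.of (0 : Fin 2) ^ n) 1 (.of 1)⁆,
    .of 0 * .of 1 * (.of 0)⁻¹ * (cw (.of 1) (.of 0 ^ n) c m)⁻¹],
    rfl, fun H _ x g u hx => ?_, fun G _ g u _ h => ?_⟩ <;>
  simp only [List.forall_mem_cons, map_mul, map_inv, map_pow, map_cj, map_cw, map_commutatorElement,
    FreeGroup.lift_apply_of, Matrix.cons_val_zero, Matrix.cons_val_one, mul_inv_eq_one,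
    commutatorElement_eq_one_iff_commute] at *
  · simp only [← hx.one]
    refine ⟨?_, ?_, ?_, by simp⟩
    · rw [hx.conj_pow, phi_cj (hx.conj_pow n), ← hx.add, h2]; simp
    · rw [phi_cj (hx.conj_pow n)]; exact hx.commute _ _
    · rw [phi_cw hx.add (hx.conj_pow n), ← hc, hx.conj, mul_one]
  · exact commute_of_word ((Commute.refl g).pow_left n)
      (baumslag ((Commute.refl g).pow_pow n j) h.2.1 h.1) h.2.2.1

theorem commute_window {G : Type*} [Group G] {g u : G} {d : ℕ} {c : ℕ → ℕ}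
    (h1 : ∀ i < d, Commute u (cj g i u)) (h2 : cj g d u = (cw u g c d)⁻¹) (i : ℕ) :
    Commute u (cj g i u) := by
  let A := closure {x | ∃ i < d, x = cj g i u}
  have k0 : ∀ i < d, cj g i u ∈ A := fun i hi => subset_closure ⟨i, hi, rfl⟩
  have k1 : ∀ m ≤ d, cw u g c m ∈ A := fun m hm => by
    induction m with
    | zero => exact one_mem _
    | succ m ih => rw [cw_succ]; exact mul_mem (ih (by omega)) (pow_mem (k0 m hm) _)
  have k2 : RGD.cj g A ≤ A := by
    rw [RGD.cj, MonoidHom.map_closure, closure_le]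
    rintro _ ⟨_, ⟨i, hi, rfl⟩, rfl⟩
    change g * _ * g⁻¹ ∈ A
    rw [← cj_succ]
    rcases (Nat.succ_le_of_lt hi).eq_or_lt with e | e
    · rw [show i + 1 = d from e, h2]; exact inv_mem (k1 d le_rfl)
    · exact k0 _ e
  rcases d.eq_zero_or_pos with rfl | hd
  · rw [cj_zero, cw_zero, inv_one] at h2; simp [h2]
  have k3 : cj g i u ∈ A := by
    induction i with
    | zero => exact k0 0 hd
    | succ i ih => rw [cj_succ]; exact RGD.cj_le_iff.1 k2 _ ih
  exact mem_centralizer_singleton_iff.1 ((closure_le (K := centralizer {u})).2 (by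
    rintro _ ⟨i, hi, rfl⟩; exact mem_centralizer_singleton_iff.2 (h1 i hi).symm) k3) |>.symm

theorem commWords_small (s : F) (h : Fintype.card F ≤ 64) : CommWords.{u} s 5 := by
  obtain ⟨p, hp⟩ := CharP.exists F
  have : Fact p.Prime := ⟨CharP.char_is_prime F p⟩
  let _ : Algebra (ZMod p) F := ZMod.algebra F p
  have hd : (minpoly (ZMod p) s).natDegree ≤ 6 := (minpoly.natDegree_le s).trans (by
    rw [Module.card_eq_pow_finrank (K := ZMod p), ZMod.card] at h
    exact (Nat.pow_le_pow_iff_right one_lt_two).1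
      ((Nat.pow_le_pow_left (Fact.out : p.Prime).two_le _).trans h))
  let w : ℕ → FreeGroup (Fin 2) := fun i => ⁅FreeGroup.of (1 : Fin 2), cj (.of (0 : Fin 2)) i (.of 1)⁆
  refine ⟨[w 2, w 3, w 4, w 5,
    cw (.of 1) (.of 0) (fun i => ((minpoly (ZMod p) s).coeff i).val)
      ((minpoly (ZMod p) s).natDegree + 1)], rfl, fun H _ x g u hx => ?_, fun G _ g u h1 h => ?_⟩ <;>
  simp only [List.forall_mem_cons, map_cj, map_cw, map_commutatorElement, w,
    FreeGroup.lift_apply_of, Matrix.cons_val_zero, Matrix.cons_val_one,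
    commutatorElement_eq_one_iff_commute] at *
  · simp only [← hx.one, phi_cj hx.conj, hx.commute, true_and]
    rw [phi_cw hx.add hx.conj, sum_minpoly, phi_zero hx.add]; simp
  · obtain ⟨h2, h3, h4, h5, h6, -⟩ := h
    rw [cw_succ, (minpoly.monic (Algebra.IsIntegral.isIntegral s)).coeff_natDegree, ZMod.val_one,
      pow_one, mul_eq_one_iff_inv_eq] at h6
    refine commute_window (fun i hi => ?_) h6.symm
    obtain rfl | rfl | rfl | rfl | rfl | rfl : i = 0 ∨ i = 1 ∨ i = 2 ∨ i = 3 ∨ i = 4 ∨ i = 5 := by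
      omega
    exacts [by rw [cj_zero], by rwa [cj_one], h2, h3, h4, h5]

theorem central_window {G : Type*} [Group G] {g u z : G} {n : ℕ} (hn : 0 < n)
    (h0 : Commute (g ^ n) z) (h1 : ∀ j < n, Commute z (cj g j u)) :
    ∀ a ∈ AG g z, ∀ b ∈ AG g u, Commute a b := by
  have k1 : ∀ j, Commute z (cj g j u) := fun j => by
    have := conj_commute ((g ^ n) ^ (j / n)) (h1 _ (Nat.mod_lt j hn))
    rwa [(h0.pow_left _).eq, mul_inv_cancel_right, ← pow_mul, ← cj_add, Nat.div_add_mod] at this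
  obtain ⟨n, rfl⟩ := Nat.exists_eq_add_of_lt hn
  rw [zero_add] at *
  refine fun a ha b hb => mem_centralizer_iff.1 ((closure_le (K := centralizer (AG g z))).2 ?_ hb) a ha
  rintro _ ⟨j, rfl⟩ a ha
  refine mem_centralizer_singleton_iff.1 ((closure_le (K := centralizer {cj g j u})).2 ?_ ha)
  rintro _ ⟨i, rfl⟩
  have := conj_commute (g ^ (n * i))⁻¹ (k1 (n * i + j))
  conv_lhs at this => rw [← mul_inv_cancel_right z ((g ^ (n + 1)) ^ i), ← (h0.pow_left i).eq]
  refine mem_centralizer_singleton_iff.2 (Commute.eq ?_)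
  convert this using 1 <;> (try simp only [cj]) <;> group

variable {X : Type} {H : Type u} [Group H] {f : X → H}

theorem cost_heis2 (p : ℕ) [Fact p.Prime] [CharP F p] [CharP K p] {s : F} (hs : Spans s) {r r' : ℕ}
    (hw : CommWords.{u} s r) {ν : K} (hν : Spans ν) {n : ℕ}
    (hn : 0 < n) (hν' : ν ^ n = 1) {g u : FreeGroup X} {g0 u0 : H} (eg : FreeGroup.lift f g = g0)
    (eu : FreeGroup.lift f u = u0) {y : K → H} (hy : IsAdd y g0 ⁅u0, g0 * u0 * g0⁻¹⁆ ν)
    (hy' : ∀ a, y a = 1 → a = 0)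
    (hc : Cost f r' fun C => Commute (C.ev g ^ n) ⁅C.ev u, C.ev g * C.ev u * (C.ev g)⁻¹⁆ →
      ∀ a ∈ AG (C.ev g) ⁅C.ev u, C.ev g * C.ev u * (C.ev g)⁻¹⁆, ∀ b ∈ AG (C.ev g) (C.ev u),
        Commute a b)
    {Z : Subgroup H} (hZ : AG g0 ⁅u0, g0 * u0 * g0⁻¹⁆ = Z)
    (hg : g0 ∈ normalizer (Z : Set H)) (hu : u0 ∈ normalizer (Z : Set H)) {x : F → NQ Z}
    (hx : IsAdd x (nq hg) (nq hu) s) (hx' : ∀ a, x a = 1 → a = 0) :
    Cost f (r + r' + 4) fun C => AG (C.ev g) (C.ev u) ⊓ C.θ.ker = ⊥ := by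
  let _ : Algebra (ZMod p) F := ZMod.algebra F p
  obtain ⟨l, l1, l2, l3⟩ := hw
  have ez : FreeGroup.lift f ⁅u, g * u * g⁻¹⁆ = ⁅u0, g0 * u0 * g0⁻¹⁆ := by simp [eg, eu]
  have c0 := cost_commute (f := f) (g ^ n) ⁅u, g * u * g⁻¹⁆ (by
    rw [ez, map_pow, eg, Commute, SemiconjBy, ← mul_inv_eq_iff_eq_mul, ← hy.one, hy.conj_pow, hν',
      mul_one])
  have c3 := cost_list (f := f) (.of 1 ^ p :: cw (.of 1) (.of 0)
    (fun i => ((minpoly (ZMod p) s).coeff i).val) ((minpoly (ZMod p) s).natDegree + 1) :: l)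
    fun w hw => cost_mem (FreeGroup.lift ![g, u] w) (AG g ⁅u, g * u * g⁻¹⁆) (by
      rw [map_AG, ez, map_lift2, eg, eu, hZ, ← lift_nq hg hu]
      simp only [List.mem_cons] at hw
      rcases hw with rfl | rfl | hw
      · simp only [map_pow, FreeGroup.lift_apply_of, Matrix.cons_val_zero, Matrix.cons_val_one]
        rw [← hx.one, ← phi_nsmul hx.add, CharP.cast_eq_zero, zero_mul, phi_zero hx.add]
      · simp only [map_cw, FreeGroup.lift_apply_of, Matrix.cons_val_zero, Matrix.cons_val_one]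
        rw [← hx.one, phi_cw hx.add hx.conj, sum_minpoly, phi_zero hx.add]
      · exact l2 _ x _ _ hx w hw)
  have c4 := cost_minpoly (f := f) p (g := g) (u := ⁅u, g * u * g⁻¹⁆) (x := y)
    (by rw [ez, eg]; exact hy) hν
  refine (((c0.and hc).and c3).and c4).mono (by simp only [List.length_cons]; omega) ?_
  rintro C ⟨⟨⟨r0, k1⟩, r3⟩, r4⟩
  have tg : C.θ (C.ev g) = g0 := by rw [C.comp, eg]
  have tu : C.θ (C.ev u) = u0 := by rw [C.comp, eu]
  simp only [map_commutatorElement, map_mul, map_inv, map_pow, map_AG, map_lift2] at r0 r3 r4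
  generalize C.ev g = g at *
  generalize C.ev u = u at *
  have k1 := k1 r0
  have k2 := (heis_central (u := 1) hn r0 (by simp) (by simp)).2
  have m0 := self_mem_AG g u
  have m1 := conj_mem_AG m0
  have m2 : AG g ⁅u, g * u * g⁻¹⁆ ≤ AG g u := (closure_le _).2 (by
    rintro _ ⟨i, rfl⟩
    induction i with
    | zero =>
      simp only [cj_zero]
      exact mul_mem (mul_mem (mul_mem m0 m1) (inv_mem m0)) (inv_mem m1)
    | succ i ih => simp only [cj_succ]; exact conj_mem_AG ih)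
  have k3 : AG g u ≤ normalizer (AG g ⁅u, g * u * g⁻¹⁆ : Set C.G) :=
    le_normalizer_iff.2 fun b hb a ha => by rwa [← (k1 a ha b hb).eq, mul_inv_cancel_right]
  have r5 := fun w hw => (lift_nq k2 (k3 m0) w).2 (r3 w hw)
  simp only [List.forall_mem_cons, map_pow, map_cw, FreeGroup.lift_apply_of, Matrix.cons_val_zero,
    Matrix.cons_val_one] at r5
  obtain ⟨φ, e1, e2, e3⟩ := exists_phi p s (surj_of_spans p hs) r5.1 (l3 _ (nq k2) (nq (k3 m0)) (by
    rw [← commutatorElement_eq_one_iff_commute, ← map_inv, ← map_mul, ← map_mul,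
      ← map_commutatorElement]
    exact (QuotientGroup.eq_one_iff _).2 (self_mem_AG _ _)) r5.2.2) (Nat.lt_succ_self _) r5.2.1
  have hφ : IsAdd φ _ _ s := ⟨e1, e2, e3⟩
  have k4 : u ^ p ∈ AG g ⁅u, g * u * g⁻¹⁆ := (nq_eq_one (pow_mem (k3 m0) p)).1 r5.1
  obtain ⟨ψ, hψ⟩ := r4 (by
    rw [← comm_pow_left (k1 _ (self_mem_AG _ _) _ m0)]; exact (k1 _ k4 _ m1).commutator_eq)
    fun i => k1 _ (self_mem_AG _ _) _ (m2 (cj_mem_AG _ _ _))
  have k5 := hψ.inf_ker hν (θ := C.θ) (x := y) (by simpa [tg, tu]) hy'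
  have k6 : (AG g ⁅u, g * u * g⁻¹⁆).map C.θ = Z := by simp [map_AG, tg, tu, hZ]
  let θ' : normalizer (AG g ⁅u, g * u * g⁻¹⁆ : Set C.G) →* normalizer (Z : Set H) :=
    (C.θ.comp (Subgroup.subtype _)).codRestrict _ fun a => k6 ▸ le_normalizer_map _ ⟨_, a.2, rfl⟩
  let θ'' : NQ (AG g ⁅u, g * u * g⁻¹⁆) →* NQ Z :=
    QuotientGroup.map _ _ θ' fun a ha => k6.le ⟨_, ha, rfl⟩
  have k7 := hφ.inf_ker hs (θ := θ'') (x := x) (by
    convert hx using 1 <;> exact congrArg _ (Subtype.ext (by assumption))) hx'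
  rw [eq_bot_iff]
  rintro a ⟨a1, a2⟩
  have a3 : nq (k3 a1) ∈ AG (nq k2) (nq (k3 m0)) := by
    rw [← map_AG]
    refine ⟨_, (mem_map_iff_mem (subtype_injective _)).1 ?_, rfl⟩
    rwa [map_AG]
  exact k5.le ⟨(nq_eq_one (k3 a1)).1 (k7.le ⟨a3, (nq_eq_one (θ' ⟨a, k3 a1⟩).2).2
    (by change C.θ a ∈ Z; rw [a2]; exact one_mem _)⟩), a2⟩

end Cfsg.Agent.Pres
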