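import Cfsg.Agent.Pres.Basic

/-! Relations up to symmetry, and reindexing of generators. -/

set_option autoImplicit false

namespace Cfsg.Agent.Pres

open Subgroup Cfsg.Agent.SymAlt Polynomial

variable {I : Type} {H : Type*} [Group H] {f : I → H}

/-- relations on orbit representatives -/
theorem cost_orb {Ψ Γ : Type*} [Group Γ] [MulAction Γ Ψ] (w : Ψ → FreeGroup I)
    (L : List (FreeGroup Ψ)) (hL : ∀ v ∈ L, FreeGroup.lift (fun ψ => FreeGroup.lift f (w ψ)) v = 1) :
    Cost f L.length fun c => ∀ (ρ : Γ → c.G) (e : Ψ → c.G), (∀ ψ, e ψ = c.ev (w ψ)) →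
      (∀ γ ψ, e (γ • ψ) = ρ γ * e ψ * (ρ γ)⁻¹) →
      ∀ v ∈ L, ∀ γ : Γ, FreeGroup.lift (fun ψ => e (γ • ψ)) v = 1 := by
  have key : ∀ {G : Type _} [Group G] (φ : FreeGroup I →* G) v,
      φ (FreeGroup.lift w v) = FreeGroup.lift (fun ψ => φ (w ψ)) v := fun φ v =>
    DFunLike.congr_fun (show φ.comp (FreeGroup.lift w) = FreeGroup.lift (fun ψ => φ (w ψ)) by
      ext ψ; simp) v
  have key' : ∀ v, FreeGroup.lift f (FreeGroup.lift w v) =
      FreeGroup.lift (fun ψ => FreeGroup.lift f (w ψ)) v := fun v =>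
    DFunLike.congr_fun (show (FreeGroup.lift f).comp (FreeGroup.lift w) =
      FreeGroup.lift (fun ψ => FreeGroup.lift f (w ψ)) by ext ψ; simp) v
  refine (cost_list L fun v hv => cost_one (FreeGroup.lift w v) (by rw [key', hL v hv])).imp ?_
  intro c hc ρ e he hγ v hv γ
  have h1 := hc v hv
  rw [key] at h1
  have : FreeGroup.lift (fun ψ => e (γ • ψ)) =
      (MulAut.conj (ρ γ)).toMonoidHom.comp (FreeGroup.lift fun ψ => c.ev (w ψ)) := by
    ext ψ; simp [hγ, he]
  rw [this, MonoidHom.comp_apply, h1, map_one]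

theorem hasRels_reindex {Y Z : Type*} {g : Y → H} {r : ℕ} (h : HasRels g r) (e : Y ≃ Z) :
    HasRels (g ∘ e.symm) r := by
  refine h.tietze_aux (FreeGroup.map e) (FreeGroup.map e.symm) ?_ ?_ ∅ ?_
  · ext y; simp
  · ext y; simp
  · intro y _; simp

/-- the final form of a presentation -/
theorem hasRels_fin {Y : Type*} [Fintype Y] {g : Y → H} {r : ℕ} (h : HasRels g r)
    (hg : closure (Set.range g) = ⊤) {d s : ℕ} (hd : Fintype.card Y ≤ d)
    (hs : r + d ≤ s + Fintype.card Y) :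
    ∃ g' : Fin d → H, HasRels g' s ∧ closure (Set.range g') = ⊤ := by
  obtain ⟨g', h1, h2⟩ := hasRels_pad (hasRels_reindex h (Fintype.equivFin Y)) hd
  refine ⟨g', h1.mono (by omega), ?_⟩
  rw [h2, Set.range_comp, Equiv.range_eq_univ, Set.image_univ, hg]

theorem exists_sec {Γ Φ : Type*} [Group Γ] [MulAction Γ Φ] (r₀ : Φ) (h : ∀ r, ∃ γ : Γ, γ • r₀ = r) :
    ∃ S : Sec Γ Φ, ∀ r, S.b r = r₀ := by
  choose c hc using h
  exact ⟨⟨fun _ => r₀, c, hc, fun _ _ => rfl⟩, fun _ => rfl⟩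

/-- two relations for the field with four elements -/
theorem cost_add_four {K : Type*} [Field K] [Fintype K] {x : K → H} {g u : FreeGroup I} {c : K}
    (hx : IsAdd x (FreeGroup.lift f g) (FreeGroup.lift f u) c) (hc : Spans c) (h2 : (2 : K) = 0)
    (h3 : 1 + c = c ^ 2) :
    Cost f 2 fun C => ∃ φ : K → C.G, IsAdd φ (C.ev g) (C.ev u) c := by
  have : CharP K 2 := (CharP.charP_iff_prime_eq_zero Nat.prime_two).2 h2
  let _ : Algebra (ZMod 2) K := ZMod.algebra K 2
  have hm : minpoly (ZMod 2) c = X ^ 2 + X + 1 := by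
    have hmon : (X ^ 2 + X + 1 : (ZMod 2)[X]).Monic := by monicity!
    have hdeg : (X ^ 2 + X + 1 : (ZMod 2)[X]).natDegree = 2 := by compute_degree!
    refine (minpoly.eq_of_irreducible_of_monic ?_ ?_ hmon).symm
    · rw [hmon.irreducible_iff_roots_eq_zero_of_degree_le_three (by omega) (by omega),
        Multiset.eq_zero_iff_forall_notMem]
      intro a ha
      rw [mem_roots hmon.ne_zero, IsRoot.def] at ha
      simp only [eval_add, eval_pow, eval_X, eval_one] at ha
      revert a; decide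
    · simp only [map_add, map_pow, aeval_X, map_one]
      linear_combination h3 + c ^ 2 * h2
  have h1 : FreeGroup.lift f (u ^ 2) = 1 := by
    rw [map_pow, ← hx.one, ← SL2Pres.phi_nsmul hx.add, CharP.cast_eq_zero, zero_mul,
      SL2Pres.phi_zero hx.add]
  refine ((cost_one _ h1).and (cost_eq (SL2Pres.cj g 2 u) (u * SL2Pres.cj g 1 u) ?_)).imp ?_
  · simp only [map_mul, SL2Pres.map_cj]
    rw [← hx.one, SL2Pres.phi_cj hx.conj, SL2Pres.phi_cj hx.conj, ← hx.add, ← h3]; simp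
  rintro C ⟨k1, k2⟩
  simp only [map_mul, map_pow, SL2Pres.map_cj] at k1 k2
  have s : ∀ i, SL2Pres.cj (C.ev g) i (C.ev u) ^ 2 = 1 := fun i => by
    rw [SL2Pres.cj, conj_pow, k1]; simp
  have c1 : Commute (C.ev u) (SL2Pres.cj (C.ev g) 1 (C.ev u)) := by
    have e1 := s 2
    have e2 := s 1
    rw [k2] at e1
    rw [sq, mul_eq_one_iff_eq_inv] at e1 e2 k1
    rw [mul_inv_rev, ← e2, ← k1] at e1
    exact e1
  obtain ⟨φ, e1, e2, e3⟩ := SL2Pres.exists_phi 2 c (surj_of_spans 2 hc) k1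
    (SL2Pres.commute_of_deg_two (a := 1) (b := 1) c1 (by simpa using k2)) (n := 3)
    (by rw [hm]; exact (show _ ≤ 2 by compute_degree).trans_lt (by norm_num)) (by
      rw [hm]
      simp only [SL2Pres.cw_succ, SL2Pres.cw_zero, SL2Pres.cj_zero, coeff_add, coeff_X_pow, coeff_X,
        coeff_one]
      norm_num
      rw [ZMod.val_one, pow_one, pow_one, pow_one, ← k2, ← sq, s])
  exact ⟨φ, e1, e2, e3⟩

end Cfsg.Agent.Pres
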