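import Cfsg.Agent.SymAlt.PresFinal
import Cfsg.Agent.Pres.Cost

/-! Permutation group facts for bounded presentations. -/

set_option autoImplicit false
set_option linter.unusedSectionVars false

namespace Cfsg.Agent.Pres

open Equiv Equiv.Perm Subgroup Cfsg.Agent.SymAlt

variable {α : Type*} [DecidableEq α] [Fintype α]

theorem exists_perm_fin {k : ℕ} (x y : Fin k → α) (hx : Function.Injective x)
    (hy : Function.Injective y) : ∃ σ : Perm α, ∀ i, σ (x i) = y i :=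
  Equiv.Perm.exists_extending_pair x y hx hy

theorem exists_not_mem (l : List α) (h : l.length < Fintype.card α) : ∃ k, k ∉ l := by
  by_contra h'
  push Not at h'
  have := (Finset.card_le_card (s := Finset.univ) (t := l.toFinset) fun k _ => by simp [h' k]).trans
    l.toFinset_card_le
  simp at this; omega

theorem exists_even_fin {k : ℕ} (x y : Fin k → α) (hx : Function.Injective x)
    (hy : Function.Injective y) (hk : k + 2 ≤ Fintype.card α) (ε : ℤˣ) :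
    ∃ σ : Perm α, sign σ = ε ∧ ∀ i, σ (x i) = y i := by
  obtain ⟨σ, hσ⟩ := exists_perm_fin x y hx hy
  by_cases h : sign σ = ε
  · exact ⟨σ, h, hσ⟩
  obtain ⟨a, ha⟩ := exists_not_mem (List.ofFn y) (by simp; omega)
  obtain ⟨b, hb⟩ := exists_not_mem (a :: List.ofFn y) (by simp; omega)
  simp only [List.mem_ofFn, List.mem_cons, not_or, not_exists] at ha hb
  refine ⟨swap a b * σ, ?_, fun i => ?_⟩
  · rw [Perm.sign_mul, sign_swap (Ne.symm hb.1)]
    rcases Int.units_eq_one_or (sign σ) with h3 | h3 <;>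
      rcases Int.units_eq_one_or ε with h4 | h4 <;> simp_all
  · rw [Perm.mul_apply, hσ, swap_apply_of_ne_of_ne (ha i) (hb.2 i)]

theorem inj2 {a b : α} (h : a ≠ b) : Function.Injective ![a, b] := by
  intro i j e; fin_cases i <;> fin_cases j <;> simp_all [eq_comm]

theorem inj3 {a b c : α} (h1 : a ≠ b) (h2 : a ≠ c) (h3 : b ≠ c) : Function.Injective ![a, b, c] := by
  intro i j e; fin_cases i <;> fin_cases j <;> simp_all [eq_comm]

theorem inj4 {a b c d : α} (h1 : a ≠ b) (h2 : a ≠ c) (h3 : a ≠ d) (h4 : b ≠ c) (h5 : b ≠ d)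
    (h6 : c ≠ d) : Function.Injective ![a, b, c, d] := by
  intro i j e; fin_cases i <;> fin_cases j <;> simp_all [eq_comm]

theorem exists_perm3 {a b c a' b' c' : α} (h1 : a ≠ b) (h2 : a ≠ c) (h3 : b ≠ c) (k1 : a' ≠ b')
    (k2 : a' ≠ c') (k3 : b' ≠ c') : ∃ σ : Perm α, σ a = a' ∧ σ b = b' ∧ σ c = c' := by
  obtain ⟨σ, h⟩ := exists_perm_fin _ _ (inj3 h1 h2 h3) (inj3 k1 k2 k3)
  exact ⟨σ, h 0, h 1, h 2⟩

theorem exists_perm4 {a b c d a' b' c' d' : α} (h1 : a ≠ b) (h2 : a ≠ c) (h3 : a ≠ d) (h4 : b ≠ c)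
    (h5 : b ≠ d) (h6 : c ≠ d) (k1 : a' ≠ b') (k2 : a' ≠ c') (k3 : a' ≠ d') (k4 : b' ≠ c')
    (k5 : b' ≠ d') (k6 : c' ≠ d') : ∃ σ : Perm α, σ a = a' ∧ σ b = b' ∧ σ c = c' ∧ σ d = d' := by
  obtain ⟨σ, h⟩ := exists_perm_fin _ _ (inj4 h1 h2 h3 h4 h5 h6) (inj4 k1 k2 k3 k4 k5 k6)
  exact ⟨σ, h 0, h 1, h 2, h 3⟩

theorem exists_even2 (hn : 4 ≤ Fintype.card α) {a b a' b' : α} (h1 : a ≠ b) (k1 : a' ≠ b') :
    ∃ σ : Perm α, sign σ = 1 ∧ σ a = a' ∧ σ b = b' := by
  obtain ⟨σ, h0, h⟩ := exists_even_fin _ _ (inj2 h1) (inj2 k1) hn 1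
  exact ⟨σ, h0, h 0, h 1⟩

theorem exists_even3 (hn : 5 ≤ Fintype.card α) {a b c a' b' c' : α} (h1 : a ≠ b) (h2 : a ≠ c)
    (h3 : b ≠ c) (k1 : a' ≠ b') (k2 : a' ≠ c') (k3 : b' ≠ c') :
    ∃ σ : Perm α, sign σ = 1 ∧ σ a = a' ∧ σ b = b' ∧ σ c = c' := by
  obtain ⟨σ, h0, h⟩ := exists_even_fin _ _ (inj3 h1 h2 h3) (inj3 k1 k2 k3) hn 1
  exact ⟨σ, h0, h 0, h 1, h 2⟩

theorem sign_mul_swap {σ : Perm α} (h : ¬ sign σ = 1) {a b : α} (hab : a ≠ b) :
    sign (σ * swap a b) = 1 := by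
  rw [Perm.sign_mul, sign_swap hab]
  rcases Int.units_eq_one_or (sign σ) with h3 | h3 <;> simp_all

theorem sign_swap_mul {σ : Perm α} (h : ¬ sign σ = 1) {a b : α} (hab : a ≠ b) :
    sign (swap a b * σ) = 1 := by
  rw [Perm.sign_mul, sign_swap hab]
  rcases Int.units_eq_one_or (sign σ) with h3 | h3 <;> simp_all

/-- Two generators for the permutations supported on `T`, when `T` has three points. -/
theorem gen_fix_big (T : Set α) {u v w : α} (hu : u ∈ T) (hv : v ∈ T) (hw : w ∈ T) (huv : u ≠ v)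
    (hwu : w ≠ u) (hwv : w ≠ v) (ε : ℤˣ) :
    ∃ τ : Perm α, sign τ = ε ∧ (∀ x, x ∉ T → τ x = x) ∧ ∀ B : Subgroup (Perm α),
      c3 u v w ∈ B → τ ∈ B → ∀ g : Perm α, sign g = 1 → (∀ x, x ∉ T → g x = x) → g ∈ B := by
  obtain ⟨g, hg, h1, h2, h3⟩ := exists_reach_uv {x | x ∈ T ∧ x ≠ u ∧ x ≠ v} w u v
    (fun h => h.2.1 rfl) (fun h => h.2.2 rfl) hwu.symm hwv.symm huv ε
  have hfix : ∀ x, x ∉ T → g x = x := fun x hx => h1 x (fun h => hx h.1)
    (fun e => hx (e ▸ hw)) (fun e => hx (e ▸ hu)) (fun e => hx (e ▸ hv))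
  refine ⟨g, hg, hfix, fun H hz hgH σ hσ hσ' => ?_⟩
  refine mem_of_c3_mem H huv T (fun i h0 h4 h5 => ?_) σ hσ (fun y _ _ h => hσ' y h)
  refine (h3 (fun x => (x ≠ u ∧ x ≠ v) ∧ c3 u v x ∈ H) ⟨⟨hwu, hwv⟩, hz⟩ ?_ i ⟨h0, h4, h5⟩).2
  rintro x ⟨⟨hx1, hx2⟩, hx⟩
  have := H.mul_mem (H.mul_mem hgH hx) (H.inv_mem hgH)
  rw [conj_c3] at this
  rcases h2 with ⟨h6, h7⟩ | ⟨h6, h7⟩
  · rw [h6, h7] at this
    exact ⟨⟨by rw [← h6]; exact g.injective.ne hx1, by rw [← h7]; exact g.injective.ne hx2⟩, this⟩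
  · have a1 : g x ≠ u := by rw [← h7]; exact g.injective.ne hx2
    have a2 : g x ≠ v := by rw [← h6]; exact g.injective.ne hx1
    rw [h6, h7, c3_swap_eq_inv huv a1 a2, inv_mem_iff] at this
    exact ⟨⟨a1, a2⟩, this⟩

theorem eq_one_or_swap (T : Set α) (h : ¬ ∃ u v w, u ∈ T ∧ v ∈ T ∧ w ∈ T ∧ u ≠ v ∧ w ≠ u ∧ w ≠ v)
    {g : Perm α} (hg : ∀ x, x ∉ T → g x = x) :
    g = 1 ∨ ∃ u v, u ∈ T ∧ v ∈ T ∧ u ≠ v ∧ g = swap u v := by
  push Not at h
  by_cases h1 : g = 1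
  · exact Or.inl h1
  obtain ⟨a, ha⟩ : ∃ a, g a ≠ a := by
    by_contra hh; push Not at hh; exact h1 (Equiv.ext hh)
  have hT : ∀ x, g x ≠ x → x ∈ T := fun x hx => by by_contra e; exact hx (hg x e)
  have hb : g (g a) ≠ g a := fun e => ha (g.injective e)
  have key : ∀ x, x ≠ a → x ≠ g a → g x = x := fun x h2 h3 => by
    by_contra e; exact h3 (h a (g a) x (hT a ha) (hT _ hb) (hT x e) ha.symm h2)
  refine Or.inr ⟨a, g a, hT a ha, hT _ hb, ha.symm, Equiv.ext fun x => ?_⟩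
  by_cases h2 : x = a
  · rw [h2, swap_apply_left]
  by_cases h3 : x = g a
  · rw [h3, swap_apply_right]
    by_contra e
    exact hb (g.injective (key _ e hb))
  · rw [swap_apply_of_ne_of_ne h2 h3, key x h2 h3]

theorem c3_fix {T : Set α} {u v w : α} (hu : u ∈ T) (hv : v ∈ T) (hw : w ∈ T) (x : α)
    (hx : x ∉ T) : c3 u v w x = x :=
  c3_apply_of_ne (fun e => hx (e ▸ hu)) (fun e => hx (e ▸ hv)) (fun e => hx (e ▸ hw))

/-- The even permutations supported on `T` are generated by two elements. -/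
theorem gen_fix_alt (T : Set α) : ∃ σ τ : Perm α, sign σ = 1 ∧ sign τ = 1 ∧
    (∀ x, x ∉ T → σ x = x) ∧ (∀ x, x ∉ T → τ x = x) ∧ ∀ B : Subgroup (Perm α), σ ∈ B → τ ∈ B →
      ∀ g : Perm α, sign g = 1 → (∀ x, x ∉ T → g x = x) → g ∈ B := by
  by_cases h : ∃ u v w, u ∈ T ∧ v ∈ T ∧ w ∈ T ∧ u ≠ v ∧ w ≠ u ∧ w ≠ v
  · obtain ⟨u, v, w, hu, hv, hw, h1, h2, h3⟩ := h
    obtain ⟨τ, k1, k2, k3⟩ := gen_fix_big T hu hv hw h1 h2 h3 1
    exact ⟨_, τ, sign_c3 h1 h2, k1, c3_fix hu hv hw, k2, k3⟩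
  · refine ⟨1, 1, by simp, by simp, by simp, by simp, fun B _ _ g h1 h2 => ?_⟩
    rcases eq_one_or_swap T h h2 with rfl | ⟨u, v, -, -, h3, rfl⟩
    · exact one_mem _
    · rw [sign_swap h3] at h1; exact absurd h1 (by decide)

/-- The permutations supported on `T` are generated by two elements, the first even. -/
theorem gen_fix_sym (T : Set α) : ∃ σ τ : Perm α, sign σ = 1 ∧
    (∀ x, x ∉ T → σ x = x) ∧ (∀ x, x ∉ T → τ x = x) ∧ ∀ B : Subgroup (Perm α), σ ∈ B → τ ∈ B →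
      ∀ g : Perm α, (∀ x, x ∉ T → g x = x) → g ∈ B := by
  by_cases h : ∃ u v w, u ∈ T ∧ v ∈ T ∧ w ∈ T ∧ u ≠ v ∧ w ≠ u ∧ w ≠ v
  · obtain ⟨u, v, w, hu, hv, hw, h1, h2, h3⟩ := h
    obtain ⟨τ, k1, k2, k3⟩ := gen_fix_big T hu hv hw h1 h2 h3 (-1)
    refine ⟨_, τ, sign_c3 h1 h2, c3_fix hu hv hw, k2, fun B b1 b2 g hg => ?_⟩
    rcases Int.units_eq_one_or (sign g) with h4 | h4
    · exact k3 B b1 b2 g h4 hg
    · have := k3 B b1 b2 (τ * g) (by rw [Perm.sign_mul, k1, h4]; rfl)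
        (fun x hx => by rw [Perm.mul_apply, hg x hx, k2 x hx])
      simpa using mul_mem (inv_mem b2) this
  · by_cases h' : ∃ u v, u ∈ T ∧ v ∈ T ∧ u ≠ v
    · obtain ⟨u, v, hu, hv, huv⟩ := h'
      refine ⟨1, swap u v, by simp, by simp, fun x hx => swap_apply_of_ne_of_ne
        (fun e => hx (e ▸ hu)) (fun e => hx (e ▸ hv)), fun B _ b2 g h2 => ?_⟩
      rcases eq_one_or_swap T h h2 with rfl | ⟨u', v', k1, k2, h3, rfl⟩
      · exact one_mem _
      · push Not at h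
        have e1 : ∀ x ∈ T, x = u ∨ x = v := fun x hx => by
          by_cases e : x = u
          · exact Or.inl e
          · exact Or.inr (h u v x hu hv hx huv e)
        rcases e1 u' k1 with rfl | rfl <;> rcases e1 v' k2 with rfl | rfl
        · exact absurd rfl h3
        · exact b2
        · rwa [swap_comm]
        · exact absurd rfl h3
    · refine ⟨1, 1, by simp, by simp, by simp, fun B _ _ g h2 => ?_⟩
      rcases eq_one_or_swap T h h2 with rfl | ⟨u, v, k1, k2, h3, rfl⟩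
      · exact one_mem _
      · exact absurd ⟨u, v, k1, k2, h3⟩ h'

theorem mem_closure_sub {M : Type*} [Group M] {Γ : Subgroup M} {s : Set Γ} {g : Γ}
    (h : ∀ B : Subgroup M, (∀ x ∈ s, x.1 ∈ B) → g.1 ∈ B) : g ∈ closure s := by
  obtain ⟨y, hy, e⟩ := h ((closure s).map Γ.subtype) fun x hx => ⟨x, subset_closure hx, rfl⟩
  rwa [← show y = g from Subtype.ext e]

theorem normalClosure_c3 {u v w : α} (huv : u ≠ v) (hwu : w ≠ u) (hwv : w ≠ v) :
    normalClosure ({⟨c3 u v w, sign_c3 huv hwu⟩} : Set (alternatingGroup α)) = ⊤ := by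
  rw [eq_top_iff]
  rintro ⟨σ, hσ⟩ -
  set N := normalClosure ({⟨c3 u v w, sign_c3 huv hwu⟩} : Set (alternatingGroup α))
  have h0 : (⟨c3 u v w, sign_c3 huv hwu⟩ : alternatingGroup α) ∈ N := subset_normalClosure rfl
  have key : ∀ i ∈ Set.univ, i ≠ u → i ≠ v → c3 u v i ∈ N.map (alternatingGroup α).subtype := by
    intro i _ h1 h2
    by_cases hi : i = w
    · exact ⟨_, h0, by rw [hi]; rfl⟩
    have hs : swap u v * swap w i ∈ alternatingGroup α := by
      rw [mem_alternatingGroup, Perm.sign_mul, sign_swap huv, sign_swap (Ne.symm hi)]; rfl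
    refine ⟨_, inv_mem ((normalClosure_normal).conj_mem _ h0 ⟨_, hs⟩), ?_⟩
    change ((swap u v * swap w i) * c3 u v w * (swap u v * swap w i)⁻¹)⁻¹ = _
    rw [conj_c3]
    simp only [Perm.mul_apply, swap_apply_left, swap_apply_of_ne_of_ne hwu.symm h1.symm,
      swap_apply_of_ne_of_ne hwv.symm h2.symm, swap_apply_right, swap_apply_of_ne_of_ne h1 h2]
    rw [c3_swap_eq_inv huv h1 h2, inv_inv]
  obtain ⟨y, hy, e⟩ := mem_of_c3_mem (N.map (alternatingGroup α).subtype) huv Set.univ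
    key σ hσ (fun _ _ _ h => absurd trivial h)
  rwa [← show y = ⟨σ, hσ⟩ from Subtype.ext e]

theorem normalClosure_swap {u v : α} (huv : u ≠ v) :
    normalClosure ({swap u v} : Set (Perm α)) = ⊤ := by
  rw [eq_top_iff, ← closure_isSwap, closure_le]
  rintro _ ⟨a, b, hab, rfl⟩
  obtain ⟨g, hg⟩ := isConj_iff.1 (isConj_swap huv hab)
  rw [← hg]
  have h0 : swap u v ∈ normalClosure ({swap u v} : Set (Perm α)) := subset_normalClosure rfl
  exact (normalClosure_normal (s := {swap u v})).conj_mem _ h0 g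

theorem Cov.mem_closure {X : Type} {H : Type*} [Group H] {f : X → H} (c : Cov f) {s : Set c.G}
    (h : ∀ x, c.ev (FreeGroup.of x) ∈ s) (g : c.G) : g ∈ closure s :=
  c.top (S := closure s) (fun x => subset_closure (h x)) ▸ mem_top g

theorem Cov.θ_of {X : Type} {H : Type*} [Group H] {f : X → H} (c : Cov f) (x : X) :
    c.θ (c.ev (FreeGroup.of x)) = f x := by rw [c.comp, FreeGroup.lift_apply_of]

/-- `A₄` has a presentation with two generators and three relations. -/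
theorem alt_four : ∃ f : Fin 2 → alternatingGroup (Fin 4), HasRels f 3 ∧
    closure (Set.range f) = ⊤ := by
  refine ⟨![⟨c3 0 1 2, sign_c3 (by decide) (by decide)⟩, ⟨c3 0 1 3, sign_c3 (by decide) (by decide)⟩],
    HasRels.of_comp (alternatingGroup (Fin 4)).subtype (subtype_injective _) ?_, ?_⟩
  · refine Cost.hasRels (((cost_one (FreeGroup.of 0 ^ 3) ?_).and ((cost_one (FreeGroup.of 1 ^ 3) ?_).and
      (cost_one ((FreeGroup.of 0 * FreeGroup.of 1) ^ 2) ?_))).imp ?_)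
    iterate 3 (simp only [map_pow, map_mul, FreeGroup.lift_apply_of]; decide)
    rintro c ⟨r0, r1, r2⟩
    simp only [map_pow, map_mul] at r0 r1 r2
    rw [injective_iff_map_eq_one]
    intro g hg
    refine carmichael c.θ (u := 0) (v := 1) (by decide)
      ![1, 1, c.ev (FreeGroup.of 0), c.ev (FreeGroup.of 1)] {2, 3} (Set.toFinite _) (by decide)
      (by decide) ?_ ?_ ?_ ?_ hg
    · rintro i (rfl | rfl)
      · exact c.θ_of 0
      · exact c.θ_of 1
    · rintro i (rfl | rfl)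
      · exact r0
      · exact r1
    · rintro i (rfl | rfl) j (rfl | rfl) hij
      · exact absurd rfl hij
      · exact r2
      · exact sq_comm r2
      · exact absurd rfl hij
    · refine c.mem_closure (fun i => ?_) g
      fin_cases i
      · exact ⟨2, by simp, rfl⟩
      · exact ⟨3, by simp, rfl⟩
  · rw [eq_top_iff]
    rintro g -
    refine mem_closure_sub fun B hB => mem_of_c3_mem B (u := 0) (v := 1) (by decide) Set.univ
      (fun i _ h1 h2 => ?_) g.1 g.2 (fun _ _ _ h => absurd trivial h)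
    fin_cases i
    · exact absurd rfl h1
    · exact absurd rfl h2
    · exact hB _ ⟨0, rfl⟩
    · exact hB _ ⟨1, rfl⟩

theorem s3_aux {G : Type*} [Group G] {a b : G} (r0 : a ^ 2 = 1) (r1 : a * b * a⁻¹ = b ^ 2) :
    b ^ 3 = 1 ∧ ∀ g ∈ closure {a, b}, ∃ k : ℕ, g = b ^ k ∨ g = b ^ k * a := by
  have r2 : b ^ 3 = 1 := by
    have e : a ^ 2 * b * (a ^ 2)⁻¹ = b ^ 4 := by
      calc _ = a * (a * b * a⁻¹) * a⁻¹ := by rw [sq]; group
        _ = (a * b * a⁻¹) ^ 2 := by rw [conj_pow, ← r1]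
        _ = _ := by rw [r1, ← pow_mul]
    rw [r0, one_mul, inv_one, mul_one] at e
    calc b ^ 3 = b ^ 4 * b⁻¹ := by group
      _ = 1 := by rw [← e, mul_inv_cancel]
  have hai : a⁻¹ = a := by rw [inv_eq_iff_mul_eq_one, ← sq, r0]
  refine ⟨r2, fun g hg => ?_⟩
  have c1 : ∀ k : ℕ, a * b ^ k = b ^ (2 * k) * a := fun k => by
    rw [pow_mul, ← r1, conj_pow]; group
  induction hg using closure_induction with
  | mem x hx =>
    rcases hx with rfl | rfl
    · exact ⟨0, Or.inr (by simp)⟩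
    · exact ⟨1, Or.inl (by simp)⟩
  | one => exact ⟨0, Or.inl (by simp)⟩
  | mul x y _ _ hx hy =>
    obtain ⟨k, rfl | rfl⟩ := hx <;> obtain ⟨l, rfl | rfl⟩ := hy
    · exact ⟨k + l, Or.inl (by rw [pow_add])⟩
    · exact ⟨k + l, Or.inr (by rw [pow_add, mul_assoc])⟩
    · exact ⟨k + 2 * l, Or.inr (by rw [mul_assoc, c1, pow_add, mul_assoc])⟩
    · refine ⟨k + 2 * l, Or.inl ?_⟩
      rw [mul_assoc, ← mul_assoc a, c1, mul_assoc, ← sq, r0, mul_one, pow_add]
  | inv x _ hx =>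
    have hbi : ∀ k : ℕ, (b ^ k)⁻¹ = b ^ (2 * k) := fun k => by
      rw [inv_eq_iff_mul_eq_one, ← pow_add, show k + 2 * k = 3 * k by ring, pow_mul, r2, one_pow]
    obtain ⟨k, rfl | rfl⟩ := hx
    · exact ⟨_, Or.inl (hbi k)⟩
    · exact ⟨_, Or.inr (by rw [mul_inv_rev, hai, hbi, c1])⟩

/-- `S₃` has a presentation with two generators and two relations. -/
theorem sym_three_small : ∃ f : Fin 2 → Perm (Fin 3), HasRels f 2 ∧ closure (Set.range f) = ⊤ := by
  refine ⟨![swap 0 1, c3 0 1 2], ?_, ?_⟩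
  · refine Cost.hasRels (((cost_one (FreeGroup.of 0 ^ 2) ?_).and
      (cost_eq (FreeGroup.of 0 * FreeGroup.of 1 * (FreeGroup.of 0)⁻¹) (FreeGroup.of 1 ^ 2) ?_)).imp ?_)
    iterate 2 (simp only [map_pow, map_mul, map_inv, FreeGroup.lift_apply_of]; decide)
    rintro c ⟨r0, r1⟩
    simp only [map_pow, map_mul, map_inv] at r0 r1
    obtain ⟨r2, key⟩ := s3_aux r0 r1
    rw [injective_iff_map_eq_one]
    intro g hg
    have pa : c.θ _ = swap 0 1 := c.θ_of 0
    have pb : c.θ _ = c3 0 1 2 := c.θ_of 1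
    obtain ⟨k, rfl | rfl⟩ := key g (c.mem_closure (fun i => by fin_cases i <;> simp) g)
    · rw [← Nat.div_add_mod k 3, pow_add, pow_mul, r2, one_pow, one_mul] at hg ⊢
      rw [map_pow, pb] at hg
      have : k % 3 < 3 := Nat.mod_lt _ (by norm_num)
      interval_cases k % 3
      · exact pow_zero _
      · exact absurd hg (by decide)
      · exact absurd hg (by decide)
    · have := congrArg sign hg
      rw [map_mul, map_pow, pa, pb, Perm.sign_mul, map_pow, sign_c3 (by decide) (by decide),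
        sign_swap (by decide)] at this
      simp at this
  · refine eq_top_of_alt_le_of_odd (g := swap 0 1) (fun σ hσ => ?_) (subset_closure ⟨0, rfl⟩)
      (sign_swap (by decide))
    refine mem_of_c3_mem _ (u := 0) (v := 1) (by decide) Set.univ
      (fun i _ h1 h2 => ?_) σ hσ (fun _ _ _ h => absurd trivial h)
    fin_cases i
    · exact absurd rfl h1
    · exact absurd rfl h2
    · exact subset_closure ⟨1, rfl⟩

end Cfsg.Agent.Pres
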