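import Cfsg.Agent.Pres.Basic
import Cfsg.Agent.Pres.Perm
import Cfsg.Agent.RGD.TypeA

/-! Recognising `SL_n` from a bounded set of relations. -/

set_option autoImplicit false
set_option linter.unusedSectionVars false
set_option linter.unusedSimpArgs false

namespace Cfsg.Agent.Pres

open Subgroup Cfsg.Agent.RGD Cfsg.Agent.RGD.RootComb Equiv Equiv.Perm Matrix
open scoped commutatorElement

instance aRootAction (n : ℕ) : MulAction (Perm (Fin n)) (ARoot n) where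
  smul := aAct
  one_smul _ := rfl
  mul_smul _ _ _ := rfl

/-- the root `e_a - e_b` -/
abbrev rt {n : ℕ} {a b : Fin n} (h : a ≠ b) : ARoot n := ⟨(a, b), h⟩

theorem det_mono {J K : Type*} [Fintype J] [DecidableEq J] [Field K] (σ : Perm J) (c : J → K) :
    (mono σ c).det = ((sign σ : ℤ) : K) * ∏ j, c j := by
  have e : mono σ c = (σ⁻¹.permMatrix K) * diagonal c := by
    ext a b
    rw [mul_diagonal, mono_apply, Perm.permMatrix, PEquiv.toMatrix_apply]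
    by_cases h : a = σ b
    · simp [h]
    · rw [if_neg h, if_neg, zero_mul]
      simp only [Equiv.toPEquiv_apply, Option.mem_def, Option.some.injEq]
      intro e; exact h (by rw [← e]; simp)
  rw [e, det_mul, det_permutation, det_diagonal, Perm.sign_inv]

variable {n : ℕ} {K : Type*} [Field K]

variable (K) in
/-- signed permutation matrices -/
def iotaA (Γ : Subgroup (Perm (Fin n))) (hΓ : ∀ σ ∈ Γ, sign σ ^ (n + 1) = 1) :
    Γ →* SpecialLinearGroup (Fin n) K where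
  toFun σ := ⟨mono σ.1 fun _ => ((sign σ.1 : ℤ) : K), by
    rw [det_mono, Finset.prod_const, Finset.card_univ, Fintype.card_fin, ← pow_succ',
      ← Int.cast_pow, ← Units.val_pow_eq_pow_val, hΓ _ σ.2]; simp⟩
  map_one' := sl_ext (by simp [mono_one])
  map_mul' σ τ := sl_ext (by
    change _ = mono _ _ * mono _ _
    simp [mono_mul])

theorem sign_cast_ne (σ : Perm (Fin n)) : ((sign σ : ℤ) : K) ≠ 0 := by
  rcases Int.units_eq_one_or (sign σ) with h | h <;> simp [h]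

theorem iotaA_conj {Γ : Subgroup (Perm (Fin n))} (hΓ : ∀ σ ∈ Γ, sign σ ^ (n + 1) = 1) (σ : Γ)
    (r : ARoot n) (t : K) :
    iotaA K Γ hΓ σ * (slFam K n).x r t * (iotaA K Γ hΓ σ)⁻¹ = (slFam K n).x (σ • r) t := by
  refine (mono_conj (g := iotaA K Γ hΓ σ) rfl r.2 (sign_cast_ne _) t).trans ?_
  rw [mul_inv_cancel₀ (sign_cast_ne _), one_mul]; rfl

/-- weights of the coroot -/
def eps (r : ARoot n) (j : Fin n) : ℤ := if j = r.1.1 then 1 else if j = r.1.2 then -1 else 0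

/-- the coroot evaluated at `ζ` -/
noncomputable def dA (ζ : Kˣ) (r : ARoot n) : SpecialLinearGroup (Fin n) K :=
  SpecialLinearGroup.diag2n r.2 (ζ : K) ζ.ne_zero

theorem dA_val (ζ : Kˣ) (r : ARoot n) : (dA ζ r).1 = mono 1 fun j => (ζ : K) ^ eps r j := by
  rw [dA, SpecialLinearGroup.diag2n_coe, mono_one]
  congr 1; ext j
  unfold eps
  split_ifs <;> simp

theorem dA_conj (ζ : Kˣ) (r s : ARoot n) (t : K) :
    dA ζ r * (slFam K n).x s t * (dA ζ r)⁻¹ =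
      (slFam K n).x s ((ζ : K) ^ (eps r s.1.1 - eps r s.1.2) * t) := by
  refine (mono_conj (dA_val ζ r) s.2 (zpow_ne_zero _ ζ.ne_zero) t).trans ?_
  rw [zpow_sub₀ ζ.ne_zero, div_eq_mul_inv]; rfl

theorem iotaA_dA {Γ : Subgroup (Perm (Fin n))} (hΓ : ∀ σ ∈ Γ, sign σ ^ (n + 1) = 1) (σ : Γ)
    (ζ : Kˣ) (r : ARoot n) :
    iotaA K Γ hΓ σ * dA ζ r * (iotaA K Γ hΓ σ)⁻¹ = dA ζ (σ • r) := by
  rw [mul_inv_eq_iff_eq_mul]
  apply sl_ext
  rw [sl_mul, sl_mul, dA_val, dA_val]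
  change mono σ.1 _ * _ = _ * mono σ.1 _
  rw [mono_mul, mono_mul, mul_one, one_mul]
  congr 1; ext j
  rw [mul_comm]
  congr 2
  change _ = if σ.1 j = σ.1 r.1.1 then _ else if σ.1 j = σ.1 r.1.2 then _ else _
  simp [eps]

theorem dA_commute (ζ : Kˣ) (r s : ARoot n) : Commute (dA ζ r) (dA ζ s) := by
  apply sl_ext
  rw [sl_mul, sl_mul, dA_val, dA_val, mono_mul, mono_mul]
  congr 1; ext j; exact mul_comm _ _

theorem dA_mul (ζ : Kˣ) {a b c : Fin n} (h1 : a ≠ b) (h2 : b ≠ c) (h3 : a ≠ c) :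
    dA ζ (rt h1) * dA ζ (rt h2) = dA ζ (rt h3) := by
  apply sl_ext
  rw [sl_mul, dA_val, dA_val, dA_val, mono_mul, mul_one]
  congr 1; ext j
  rw [← zpow_add₀ ζ.ne_zero]
  congr 1
  change eps (rt h1) j + eps (rt h2) j = eps (rt h3) j
  by_cases e1 : j = a
  · simp [eps, e1, h1, h3]
  by_cases e2 : j = b
  · simp [eps, e2, h1.symm, h2]
  · simp [eps, e1, e2]

variable {G : Type*} [Group G]

/-- lifted root groups with a torus action -/
structure CtxA (ζ : Kˣ) (θ : G →* SpecialLinearGroup (Fin n) K) where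
  /-- the family -/
  F : Fam (ARoot n) K G
  /-- the torus elements -/
  hh : ARoot n → G
  lift : ∀ r t, θ (F.x r t) = (slFam K n).x r t
  act : ∀ r s a, hh r * F.x s a * (hh r)⁻¹ = F.x s ((ζ : K) ^ (eps r s.1.1 - eps r s.1.2) * a)

theorem spans_four [Fintype K] {ζ : Kˣ} (hζ : orderOf ζ = Fintype.card K - 1)
    (h4 : Fintype.card K = 4) :
    1 + (ζ : K) = (ζ : K) ^ 2 ∧ ∀ a : K, a ∈ AddSubmonoid.closure ({1, (ζ : K)} : Set K) := by
  have h3 : (ζ : K) ^ 3 = 1 := by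
    have := pow_orderOf_eq_one ζ
    rw [hζ, h4] at this
    simpa using congrArg Units.val this
  have h1 : (ζ : K) ≠ 1 := fun e => by
    have : ζ = 1 := Units.ext e
    rw [this, orderOf_one, h4] at hζ; omega
  have h2 : (2 : K) = 0 := by
    have := FiniteField.cast_card_eq_zero K
    rw [h4] at this
    have e : (2 : K) ^ 2 = 0 := by rw [← this]; norm_num
    exact pow_eq_zero_iff (by norm_num) |>.1 e
  have h5 : 1 + (ζ : K) = (ζ : K) ^ 2 := by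
    have : ((ζ : K) - 1) * ((ζ : K) ^ 2 + ζ + 1) = 0 := by linear_combination h3
    have := (mul_eq_zero.1 this).resolve_left (sub_ne_zero.2 h1)
    linear_combination this - (ζ : K) ^ 2 * h2
  refine ⟨h5, fun a => ?_⟩
  have m1 : (1 : K) ∈ AddSubmonoid.closure ({1, (ζ : K)} : Set K) :=
    AddSubmonoid.subset_closure (by simp)
  have m2 : (ζ : K) ∈ AddSubmonoid.closure ({1, (ζ : K)} : Set K) :=
    AddSubmonoid.subset_closure (by simp)
  refine AddSubmonoid.closure_le.2 ?_ (spans_prim hζ a)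
  rintro _ ⟨i, rfl⟩
  simp only
  rw [← Nat.div_add_mod i 3, pow_add, pow_mul, h3, one_pow, one_mul]
  have : i % 3 < 3 := Nat.mod_lt _ (by norm_num)
  interval_cases i % 3
  · simpa using m1
  · simpa using m2
  · rw [← h5]; exact add_mem m1 m2

namespace CtxA

variable [Fintype K] {ζ : Kˣ} {θ : G →* SpecialLinearGroup (Fin n) K} (C : CtxA ζ θ)

theorem norm (r s : ARoot n) : C.hh r ∈ normalizer (C.F.X s : Set G) :=
  mem_normalizer_iff_cj.2 (C.F.cj_X_of (zpow_ne_zero _ ζ.ne_zero) (C.act r s))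

/-- the relations needed to spread -/
def Ok (r s : ARoot n) (M : Subgroup G) : Prop :=
  ⁅C.F.x r 1, C.F.x s 1⁆ ∈ M ∧
    (4 ≤ n ∨ Fintype.card K ≠ 4 ∨ ⁅C.F.x r ζ, C.F.x s 1⁆ ∈ M)

theorem spread (hζ : orderOf ζ = Fintype.card K - 1) {r s : ARoot n} {M : Subgroup G}
    (hr : C.F.X r ≤ normalizer (M : Set G)) (hs : C.F.X s ≤ normalizer (M : Set G))
    (hM : ∀ t, C.hh t ∈ normalizer (M : Set G)) (h : C.Ok r s M)
    (h4 : 4 ≤ n → ∃ t, eps t r.1.1 - eps t r.1.2 = 1 ∧ eps t s.1.1 - eps t s.1.2 = 0)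
    (t1 t2 : ARoot n) (e1 : eps t1 r.1.1 - eps t1 r.1.2 + (eps t2 r.1.1 - eps t2 r.1.2) = 3)
    (e2 : eps t1 s.1.1 - eps t1 s.1.2 + (eps t2 s.1.1 - eps t2 s.1.2) = 0)
    (t3 : ARoot n) (e3 : eps t3 s.1.1 - eps t3 s.1.2 = 1) : ⁅C.F.X r, C.F.X s⁆ ≤ M := by
  refine spread_right C.F hs (hM t3) (C.norm t3 r) (spans_prim hζ) one_ne_zero
    (fun a => by rw [C.act, e3, zpow_one]) ?_
  by_cases hn : 4 ≤ n
  · obtain ⟨t, k1, k2⟩ := h4 hn
    exact spread_left' C.F hr (hM t) (by rw [C.act, k2, zpow_zero, one_mul]) (spans_prim hζ)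
      one_ne_zero (fun a => by rw [C.act, k1, zpow_one]) h.1
  by_cases hq : Fintype.card K = 4
  · refine spread_left C.F hr (spans_four hζ hq).2 ?_
    rintro a (rfl | rfl)
    · exact h.1
    · exact (h.2.resolve_left hn).resolve_left (not_not.2 hq)
  · have e : ∀ s a, C.hh t1 * C.hh t2 * C.F.x s a * (C.hh t1 * C.hh t2)⁻¹ = C.F.x s ((ζ : K) ^
        (eps t1 s.1.1 - eps t1 s.1.2 + (eps t2 s.1.1 - eps t2 s.1.2)) * a) := fun s a => by
      rw [zpow_add₀ ζ.ne_zero, mul_assoc _ _ a, ← C.act, ← C.act]; group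
    exact spread_left' C.F hr (mul_mem (hM t1) (hM t2)) (by rw [e, e2, zpow_zero, one_mul])
      (spans_cube hζ hq) one_ne_zero (fun a => by rw [e, e1]; norm_cast) h.1

theorem bot_norm (A : Subgroup G) : A ≤ normalizer ((⊥ : Subgroup G) : Set G) := by
  rw [normalizer_eq_top]; exact le_top

theorem fresh (hn : 4 ≤ n) (a b c : Fin n) : ∃ d, d ≠ a ∧ d ≠ b ∧ d ≠ c := by
  obtain ⟨d, hd⟩ := exists_fin_ne [a, b, c] (by simp; omega)
  exact ⟨d, by simpa using hd⟩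

variable (hζ : orderOf ζ = Fintype.card K - 1) {a b c : Fin n} (h1 : a ≠ b) (h2 : a ≠ c) (h3 : b ≠ c)
include hζ h1 h2 h3

theorem c1 (h : C.Ok (rt h1) (rt h2) ⊥) : ⁅C.F.X (rt h1), C.F.X (rt h2)⁆ = ⊥ := by
  refine le_bot_iff.1 (C.spread hζ (bot_norm _) (bot_norm _) (fun t => bot_norm ⊤ (mem_top _)) h
    (fun hn => ?_) (rt h1) (rt h3.symm) ?_ ?_ (rt h3) ?_)
  · obtain ⟨d, k1, k2, k3⟩ := fresh hn a b c
    exact ⟨rt k2, by simp [eps, h1, k1.symm, k2.symm], by simp [eps, h1, h3.symm, k1.symm, k3.symm]⟩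
  all_goals simp [eps, h1, h2, h3, h1.symm, h2.symm, h3.symm]

theorem c2 (h : C.Ok (rt h1) (rt h3.symm) ⊥) : ⁅C.F.X (rt h1), C.F.X (rt h3.symm)⁆ = ⊥ := by
  refine le_bot_iff.1 (C.spread hζ (bot_norm _) (bot_norm _) (fun t => bot_norm ⊤ (mem_top _)) h
    (fun hn => ?_) (rt h1) (rt h2) ?_ ?_ (rt h2.symm) ?_)
  · obtain ⟨d, k1, k2, k3⟩ := fresh hn a b c
    exact ⟨rt k1.symm, by simp [eps, h1.symm, k2.symm],
      by simp [eps, h1.symm, h2.symm, k2.symm, k3.symm]⟩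
  all_goals simp [eps, h1, h2, h3, h1.symm, h2.symm, h3.symm]

theorem c3 (k1 : ⁅C.F.X (rt h1), C.F.X (rt h2)⁆ = ⊥) (k2 : ⁅C.F.X (rt h3), C.F.X (rt h2)⁆ = ⊥)
    (h : C.Ok (rt h1) (rt h3) (C.F.X (rt h2))) :
    ⁅C.F.X (rt h1), C.F.X (rt h3)⁆ ≤ C.F.X (rt h2) := by
  refine C.spread hζ (norm_of_comm_bot k1) (norm_of_comm_bot k2) (fun t => C.norm _ _) h
    (fun hn => ?_) (rt h1) (rt h2) ?_ ?_ (rt h2) ?_
  · obtain ⟨d, k1, k2, k3⟩ := fresh hn a b c
    exact ⟨rt k1.symm, by simp [eps, h1.symm, k2.symm],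
      by simp [eps, h1.symm, h2.symm, k2.symm, k3.symm]⟩
  all_goals simp [eps, h1, h2, h3, h1.symm, h2.symm, h3.symm]

theorem c4 {d : Fin n} (h4 : a ≠ d) (h5 : b ≠ d) (h6 : c ≠ d)
    (h : Commute (C.F.x (rt h1) 1) (C.F.x (rt h6) 1)) : ⁅C.F.X (rt h1), C.F.X (rt h6)⁆ = ⊥ := by
  refine le_bot_iff.1 (spread_right C.F (bot_norm _) (bot_norm ⊤ (mem_top (C.hh (rt h6))))
    (C.norm _ _) (spans_sq hζ) one_ne_zero (fun a => by rw [C.act]; simp [eps, h6.symm]) ?_)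
  exact spread_left' C.F (bot_norm _) (bot_norm ⊤ (mem_top (C.hh (rt h1))))
    (by rw [C.act]; simp [eps, h2.symm, h3.symm, h4.symm, h5.symm]) (spans_sq hζ) one_ne_zero
    (fun a => by rw [C.act]; simp [eps, h1.symm]) h.commutator_eq

end CtxA

theorem commRel_A {m : ℕ} {V : ARoot (m + 1) → Subgroup G}
    (k1 : ∀ a b c (h1 : a ≠ b) (h2 : a ≠ c), b ≠ c → ⁅V (rt h1), V (rt h2)⁆ = ⊥)
    (k2 : ∀ a b c (h1 : a ≠ b) (h2 : c ≠ b), a ≠ c → ⁅V (rt h1), V (rt h2)⁆ = ⊥)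
    (k3 : ∀ a b c (h1 : a ≠ b) (h2 : a ≠ c) (h3 : b ≠ c), ⁅V (rt h1), V (rt h3)⁆ ≤ V (rt h2))
    (k4 : ∀ a b c d (h1 : a ≠ b) (h6 : c ≠ d), a ≠ c → b ≠ c → a ≠ d → b ≠ d →
      ⁅V (rt h1), V (rt h6)⁆ = ⊥) : (typeA m).CommRel V := by
  rintro ⟨⟨a, b⟩, h⟩ ⟨⟨c, d⟩, h'⟩ h1 h2
  have h3 : ¬ (c = b ∧ d = a) := fun e => h2 (Subtype.ext (Prod.ext e.1 e.2))
  have h4 : ¬ (c = a ∧ d = b) := fun e => h1 (Subtype.ext (Prod.ext e.1 e.2))
  by_cases e1 : b = c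
  · subst e1
    have h5 : a ≠ d := fun e => h3 ⟨rfl, e.symm⟩
    exact (k3 a b d h h5 h').trans (le_US (U := V) (r := rt h5) (Or.inl ⟨rfl, rfl⟩))
  by_cases e2 : d = a
  · subst e2
    rw [commutator_comm]
    exact (k3 c d b h' (Ne.symm e1) h).trans
      (le_US (U := V) (r := rt (Ne.symm e1)) (Or.inr ⟨rfl, rfl⟩))
  by_cases e3 : a = c
  · subst e3
    exact (k1 a b d h h' fun e => h4 ⟨rfl, e.symm⟩).le.trans bot_le
  by_cases e4 : b = d
  · subst e4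
    exact (k2 a b c h h' e3).le.trans bot_le
  · exact (k4 a b c d h h' e3 e1 (Ne.symm e2) e4).le.trans bot_le

end Cfsg.Agent.Pres
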