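import Cfsg.Agent.Pres.TypeA

/-! Recognising `SL_n` from a bounded set of relations: the abstract theorem. -/

set_option autoImplicit false
set_option linter.unusedSectionVars false
set_option linter.unusedSimpArgs false

namespace Cfsg.Agent.Pres

open Subgroup Cfsg.Agent.RGD Cfsg.Agent.RGD.RootComb Equiv Equiv.Perm Matrix
open scoped commutatorElement

variable {m : ℕ} {K : Type*} [Field K] [Fintype K] {G : Type*} [Group G]
  {Γ : Subgroup (Perm (Fin (m + 1)))}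

theorem slFam_isAdd {n : ℕ} (ζ : Kˣ) {a b c : Fin n} (h1 : a ≠ b) (h2 : a ≠ c) (h3 : b ≠ c) :
    IsAdd ((slFam K n).x (rt h1)) (dA ζ (rt h2)) ((slFam K n).x (rt h1) 1) (ζ : K) :=
  ⟨(slFam K n).x_add _, rfl, fun t => by rw [dA_conj]; simp [eps, h1.symm, h3]⟩

/-- the relations recognising the special linear group -/
structure HypA (hΓ : ∀ σ ∈ Γ, sign σ ^ (m + 1 + 1) = 1) (ζ : Kˣ) (S : Sec Γ (ARoot (m + 1)))
    {a0 a1 a2 : Fin (m + 1)} (h01 : a0 ≠ a1) (h02 : a0 ≠ a2) (h12 : a1 ≠ a2)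
    (θ : G →* SpecialLinearGroup (Fin (m + 1)) K) (ρ : Γ →* G) (u h : G)
    (uu hh : ARoot (m + 1) → G) : Prop where
  hb : ∀ r, S.b r = rt h01
  huu : uu = S.tr ρ fun _ => u
  hhh : hh = S.tr ρ fun _ => h
  hρ : ∀ γ, θ (ρ γ) = iotaA K Γ hΓ γ
  hu : θ u = (slFam K (m + 1)).x (rt h01) 1
  hθh : θ h = dA ζ (rt h01)
  s1 : ∀ σ : Γ, σ • rt h01 = rt h01 → Commute (ρ σ) h
  s2 : ∀ σ : Γ, σ • rt h01 = rt h01 → Commute (ρ σ) u
  t1 : ∀ a b c (h1 : a ≠ b) (h2 : a ≠ c) (h3 : b ≠ c), hh (rt h1) * hh (rt h3) = hh (rt h2)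
  t2 : ∀ a b c (h1 : a ≠ b) (h2 : a ≠ c), b ≠ c → Commute (hh (rt h1)) (hh (rt h2))
  z : ((∀ c (h : c ≠ a2), c ≠ a0 → c ≠ a1 → Commute (hh (rt h)) u) ∧
      Commute (hh (rt h02) * hh (rt h12)) u) ∨
    (4 ≤ m ∧ ∀ c d (k1 : a0 ≠ c) (k2 : a1 ≠ d) (k3 : a0 ≠ d) (k4 : a1 ≠ c), c ≠ d →
      Commute (hh (rt k1) * hh (rt k2)) u ∨ Commute (hh (rt k3) * hh (rt k4)) u)
  add : ∃ φ : K → G, IsAdd φ (hh (rt h02)) u (ζ : K)
  c1 : ∀ a b c (h1 : a ≠ b) (h2 : a ≠ c), b ≠ c → Commute (uu (rt h1)) (uu (rt h2)) ∧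
    (4 ≤ m + 1 ∨ Fintype.card K ≠ 4 ∨
      Commute (hh (rt h2) * uu (rt h1) * (hh (rt h2))⁻¹) (uu (rt h2)))
  c2 : ∀ a b c (h1 : a ≠ b) (h2 : a ≠ c) (h3 : c ≠ b), Commute (uu (rt h1)) (uu (rt h3)) ∧
    (4 ≤ m + 1 ∨ Fintype.card K ≠ 4 ∨
      Commute (hh (rt h2) * uu (rt h1) * (hh (rt h2))⁻¹) (uu (rt h3)))
  c3 : ∀ a b c (h1 : a ≠ b) (h2 : a ≠ c) (h3 : b ≠ c), ⁅uu (rt h1), uu (rt h3)⁆ = uu (rt h2) ∧
    (4 ≤ m + 1 ∨ Fintype.card K ≠ 4 ∨ ⁅hh (rt h2) * uu (rt h1) * (hh (rt h2))⁻¹, uu (rt h3)⁆ =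
      hh (rt h1) * uu (rt h2) * (hh (rt h1))⁻¹)
  c4 : ∀ a b c d (h1 : a ≠ b) (h6 : c ≠ d), a ≠ c → b ≠ c → a ≠ d → b ≠ d →
    Commute (uu (rt h1)) (uu (rt h6)) ∨ ∃ (e : Fin (m + 1)) (k1 : c ≠ e) (k2 : e ≠ d), a ≠ e ∧ b ≠ e ∧
      Commute (uu (rt h1)) (uu (rt k1)) ∧ Commute (uu (rt h1)) (uu (rt k2))
  gen : ∃ s : Set Γ, normalClosure s = ⊤ ∧
    ∀ γ ∈ s, ρ γ ∈ US (S.V ρ fun _ => AG (hh (rt h02)) u) Set.univ
  top : ∀ B : Subgroup G, u ∈ B → h ∈ B → (∀ γ, ρ γ ∈ B) → B = ⊤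

namespace HypA

variable {hΓ : ∀ σ ∈ Γ, sign σ ^ (m + 1 + 1) = 1} {ζ : Kˣ} {S : Sec Γ (ARoot (m + 1))}
  {a0 a1 a2 : Fin (m + 1)} {h01 : a0 ≠ a1} {h02 : a0 ≠ a2} {h12 : a1 ≠ a2}
  {θ : G →* SpecialLinearGroup (Fin (m + 1)) K} {ρ : Γ →* G} {u h : G}
  {uu hh : ARoot (m + 1) → G} (H : HypA hΓ ζ S h01 h02 h12 θ ρ u h uu hh)
include H

theorem hh_smul (γ : Γ) (r : ARoot (m + 1)) : hh (γ • r) = ρ γ * hh r * (ρ γ)⁻¹ := by
  rw [H.hhh]; exact S.tr_smul (fun σ hσ => H.s1 σ (by rwa [H.hb] at hσ)) γ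

theorem hc (r : ARoot (m + 1)) : S.c r • rt h01 = r := by rw [← H.hb r, S.hc]

theorem θ_hh (r : ARoot (m + 1)) : θ (hh r) = dA ζ r := by
  rw [H.hhh, Sec.tr, map_mul, map_mul, map_inv, H.hρ, H.hθh, iotaA_dA, H.hc]

theorem θ_uu (r : ARoot (m + 1)) : θ (uu r) = (slFam K (m + 1)).x r 1 := by
  rw [H.huu, Sec.tr, map_mul, map_mul, map_inv, H.hρ, H.hu, iotaA_conj, H.hc]

theorem hh_base : hh (rt h01) = h := by
  rw [H.hhh, ← H.hb (rt h01)]
  exact S.tr_base (fun σ hσ => H.s1 σ (by rwa [H.hb] at hσ))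

theorem exists_third (a b : Fin (m + 1)) : ∃ c, c ≠ a ∧ c ≠ b := by
  by_contra h
  push Not at h
  by_cases e0 : a0 = a
  · exact h12 ((h a1 fun e => h01 (e0.trans e.symm)).trans
      (h a2 fun e => h02 (e0.trans e.symm)).symm)
  by_cases e1 : a1 = a
  · exact h02 ((h a0 e0).trans (h a2 fun e => h12 (e1.trans e.symm)).symm)
  · exact h01 ((h a0 e0).trans (h a1 e1).symm)

theorem hh_inv {a b : Fin (m + 1)} (h1 : a ≠ b) : hh (rt h1.symm) = (hh (rt h1))⁻¹ := by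
  obtain ⟨c, k1, k2⟩ := H.exists_third a b
  have e1 := H.t1 a b c h1 k1.symm k2.symm
  have e2 := H.t1 b a c h1.symm k2.symm k1.symm
  rw [← e2, ← mul_assoc, mul_eq_right] at e1
  exact eq_inv_of_mul_eq_one_right e1

/-- every torus element is a quotient of two elements with second index `k` -/
theorem hh_mem {B : Subgroup G} (k : Fin (m + 1)) (hB : ∀ c (h : c ≠ k), hh (rt h) ∈ B)
    (r : ARoot (m + 1)) : hh r ∈ B := by
  obtain ⟨⟨a, b⟩, h1⟩ := r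
  by_cases e1 : b = k
  · subst e1; exact hB a h1
  by_cases e2 : a = k
  · subst e2; rw [show (⟨(a, b), h1⟩ : ARoot _) = rt (Ne.symm e1) from rfl, H.hh_inv e1]
    exact inv_mem (hB b e1)
  · have := H.t1 a b k h1 e2 e1
    rw [← eq_mul_inv_iff_mul_eq] at this
    rw [show (⟨(a, b), h1⟩ : ARoot _) = rt h1 from rfl, this]
    exact mul_mem (hB a e2) (inv_mem (hB b e1))

theorem hh_commute (r s : ARoot (m + 1)) : Commute (hh r) (hh s) := by
  obtain ⟨⟨a, b⟩, h1⟩ := s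
  refine mem_centralizer_singleton_iff.1 (H.hh_mem (B := centralizer {hh (rt h1)}) a
    (fun c hc => mem_centralizer_singleton_iff.2 ?_) r)
  rw [show rt hc = rt hc.symm.symm from rfl, H.hh_inv hc.symm]
  refine Commute.inv_left ?_
  by_cases e : c = b
  · subst e; rfl
  · exact H.t2 a c b _ _ e

theorem z12 : (∀ c (h : c ≠ a2), c ≠ a0 → c ≠ a1 → Commute (hh (rt h)) u) ∧
    Commute (hh (rt h02) * hh (rt h12)) u := by
  rcases H.z with hz | ⟨hm, hz⟩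
  · exact hz
  have P : ∀ c d (k1 : a0 ≠ c) (k2 : a1 ≠ d), a0 ≠ d → a1 ≠ c → c ≠ d →
      Commute (hh (rt k1) * hh (rt k2)) u := fun c d k1 k2 k3 k4 k5 => by
    rcases hz c d k1 k2 k3 k4 k5 with h | h
    · exact h
    · rwa [← H.t1 a0 c d k1 k3 k5, mul_assoc, (H.hh_commute _ (rt k4)).eq,
        H.t1 a1 c d k4 k2 k5] at h
  have z1 : ∀ c (h : c ≠ a2), c ≠ a0 → c ≠ a1 → Commute (hh (rt h)) u := fun c h k1 k2 => by
    obtain ⟨e, he⟩ := exists_not_mem [a0, a1, a2, c] (by simp; omega)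
    simp only [List.mem_cons, List.not_mem_nil, or_false, not_or] at he
    obtain ⟨e0, e1, e2, e3⟩ := he
    have := (P a2 e h02 (Ne.symm e1) (Ne.symm e0) h12 (Ne.symm e2)).mul_left
      (P c e k1.symm (Ne.symm e1) (Ne.symm e0) k2.symm (Ne.symm e3)).inv_left
    rwa [← H.t1 a0 c a2 k1.symm h02 h, _root_.mul_inv_rev, mul_assoc, mul_inv_cancel_left,
      (H.hh_commute _ (rt h)).eq, mul_inv_cancel_right] at this
  refine ⟨z1, ?_⟩
  obtain ⟨c, hc⟩ := exists_not_mem [a0, a1, a2] (by simp; omega)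
  simp only [List.mem_cons, List.not_mem_nil, or_false, not_or] at hc
  obtain ⟨c0, c1, c2⟩ := hc
  rw [← H.t1 a1 c a2 (Ne.symm c1) h12 c2, ← mul_assoc]
  exact (P a2 c h02 (Ne.symm c1) (Ne.symm c0) h12 (Ne.symm c2)).mul_left (z1 c c2 c0 c1)

theorem injective (hm : 2 ≤ m) (hζ : orderOf ζ = Fintype.card K - 1) : Function.Injective θ := by
  obtain ⟨φ, hφ⟩ := H.add
  have hsp := spans_prim hζ
  have := hφ.finite hsp
  set A := AG (hh (rt h02)) u with hA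
  have hx := slFam_isAdd ζ h01 h02 h12
  have inj := (slFam_isChev0 (K := K) m).inj
  have n1 : ∀ r, hh r ∈ normalizer (A : Set G) := by
    refine H.hh_mem a2 fun c hc => ?_
    by_cases e0 : c = a0
    · subst e0; exact self_norm_AG
    by_cases e1 : c = a1
    · subst e1
      have : hh (rt h02) * hh (rt hc) ∈ normalizer (A : Set G) :=
        norm_AG_of_commute ((H.hh_commute _ _).mul_left (H.hh_commute _ _))
          (by rw [H.z12.2.eq, mul_inv_cancel_right]; exact self_mem_AG _ _)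
      simpa using mul_mem (inv_mem self_norm_AG) this
    · exact norm_AG_of_commute (H.hh_commute _ _)
        (by rw [(H.z12.1 c hc e0 e1).eq, mul_inv_cancel_right]; exact self_mem_AG _ _)
  have n2 : ∀ r (σ : Γ), σ • S.b r = S.b r → cj (ρ σ) A = A := fun r σ hσ =>
    mem_normalizer_iff_cj.1 (norm_AG (by rw [← H.hh_smul]; exact n1 _)
      (by rw [(H.s2 σ (by rwa [H.hb] at hσ)).eq, mul_inv_cancel_right]; exact self_mem_AG _ _))
  have o : Over θ (S.V ρ fun _ => A) (slFam K (m + 1)).X := by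
    refine S.over_V (fun γ r => ?_) (fun r => ?_) fun r => ?_
    · rw [H.hρ]
      exact Fam.cj_X_of _ one_ne_zero fun t => by rw [iotaA_conj, one_mul]
    · rw [hA, map_AG, H.θ_hh, H.hu, H.hb]
      ext y; rw [hx.mem_AG hsp, Fam.mem_X]
    · exact hφ.inf_ker hsp (by rw [H.θ_hh, H.hu]; exact hx) (inj _)
  obtain ⟨F, hF, hθ⟩ := Fam.exists_lift _ o
  have heq : ∀ (γ : Γ) r, cj (ρ γ) (F.X r) = F.X (γ • r) := fun γ r => by
    rw [hF]; exact S.V_smul (n2 r) γ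
  have n3 : ∀ t r, hh t ∈ normalizer (F.X r : Set G) := fun t r => by
    rw [hF]
    refine S.norm_V (T := closure (Set.range hh)) (fun γ t ht => ?_) (fun _ => ?_) r
      (subset_closure ⟨t, rfl⟩)
    · have : cj (ρ γ) (closure (Set.range hh)) ≤ closure (Set.range hh) := by
        rw [cj, MonoidHom.map_closure, closure_le]
        rintro _ ⟨_, ⟨r, rfl⟩, rfl⟩
        exact subset_closure ⟨_, H.hh_smul γ r⟩
      exact this (conj_mem_cj ht)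
    · rw [closure_le]; rintro _ ⟨r, rfl⟩; exact n1 r
  let C : CtxA ζ θ := ⟨F, hh, hθ, fun r s a => conj_lift hθ inj (mem_normalizer_iff_cj.1 (n3 r s))
    (by rw [H.θ_hh, dA_conj])⟩
  have hu : ∀ r, uu r = F.x r 1 := fun r => eq_lift hθ inj (by
    rw [hF, H.huu]; exact conj_mem_cj (self_mem_AG _ _)) (H.θ_uu r)
  have hz : ∀ a b c (h1 : a ≠ b) (h2 : a ≠ c), b ≠ c →
      hh (rt h2) * F.x (rt h1) 1 * (hh (rt h2))⁻¹ = F.x (rt h1) ζ := fun a b c h1 h2 h3 => by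
    have := C.act (rt h2) (rt h1) 1
    simpa [eps, h1.symm, h3] using this
  have k1 : ∀ a b c (h1 : a ≠ b) (h2 : a ≠ c), b ≠ c → ⁅F.X (rt h1), F.X (rt h2)⁆ = ⊥ := by
    intro a b c h1 h2 h3
    have := H.c1 a b c h1 h2 h3
    rw [hu, hu, hz a b c h1 h2 h3] at this
    exact C.c1 hζ h1 h2 h3 ⟨this.1.commutator_eq, this.2.imp_right (Or.imp_right fun h => h.commutator_eq)⟩
  have k2 : ∀ a b c (h1 : a ≠ b) (h2 : c ≠ b), a ≠ c → ⁅F.X (rt h1), F.X (rt h2)⁆ = ⊥ := by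
    intro a b c h1 h3 h2
    have := H.c2 a b c h1 h2 h3
    rw [hu, hu, hz a b c h1 h2 h3.symm] at this
    exact C.c2 hζ h1 h2 h3.symm
      ⟨this.1.commutator_eq, this.2.imp_right (Or.imp_right fun h => h.commutator_eq)⟩
  have k3 : ∀ a b c (h1 : a ≠ b) (h2 : a ≠ c) (h3 : b ≠ c),
      ⁅F.X (rt h1), F.X (rt h3)⁆ ≤ F.X (rt h2) := by
    intro a b c h1 h2 h3
    have := H.c3 a b c h1 h2 h3
    rw [hu, hu, hu, hz a b c h1 h2 h3, hz a c b h2 h1 h3.symm] at this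
    exact C.c3 hζ h1 h2 h3 (k1 a b c h1 h2 h3) (k2 b c a h3 h2 h1.symm)
      ⟨this.1 ▸ F.x_mem _ _, this.2.imp_right (Or.imp_right fun h => by rw [h]; exact F.x_mem _ _)⟩
  have k4 : ∀ a b c d (h1 : a ≠ b) (h6 : c ≠ d), a ≠ c → b ≠ c → a ≠ d → b ≠ d →
      ⁅F.X (rt h1), F.X (rt h6)⁆ = ⊥ := by
    intro a b c d h1 h6 h2 h3 h4 h5
    rcases H.c4 a b c d h1 h6 h2 h3 h4 h5 with h | ⟨e, j1, j2, j3, j4, j5, j6⟩
    · rw [hu, hu] at h
      exact C.c4 hζ h1 h2 h3 h4 h5 h6 h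
    · rw [hu, hu] at j5 j6
      refine C.c4 hζ h1 h2 h3 h4 h5 h6 ?_
      have := (H.c3 c e d j1 h6 j2).1
      rw [hu, hu, hu] at this
      change Commute _ (F.x _ 1)
      rw [← this, commutatorElement_def]
      exact ((j5.mul_right j6).mul_right j5.inv_right).mul_right j6.inv_right
  have hk := (slFam_isChev hm).inf_ker (slFam_tau_inj m) hθ (commRel_A k1 k2 k3 k4)
  have hS := cj_US_of heq
  obtain ⟨s, hs1, hs2⟩ := H.gen
  rw [← hA, ← hF] at hs2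
  have g1 := mem_of_normalClosure hS hs2 hs1
  have g2 : u ∈ US F.X Set.univ := by
    have : u = uu (rt h01) := by
      rw [H.huu, ← H.hb (rt h01)]
      exact (S.tr_base (a := fun _ => u) (fun σ hσ => H.s2 σ (by rwa [H.hb] at hσ))).symm
    rw [this, hu]; exact le_US (Set.mem_univ _) (F.x_mem _ _)
  have g3 : ∀ r, hh r ∈ normalizer (US F.X Set.univ : Set G) := fun r =>
    Tor_le_norm _ (mem_Tor.2 fun s => mem_normalizer_iff_cj.1 (n3 r s))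
  have g4 : ∀ r, h⁻¹ * hh r ∈ US F.X Set.univ := fun r => by
    rw [← H.hc r, H.hh_smul, H.hh_base]
    have := (mem_normalizer_iff.1 (inv_mem (H.hh_base ▸ g3 (rt h01))) _).1 (g1 (S.c r))
    simpa [mul_assoc] using mul_mem this (inv_mem (g1 (S.c r)))
  have g5 : h ∈ US F.X Set.univ := by
    have e := H.t1 a0 a1 a2 h01 h02 h12
    rw [H.hh_base] at e
    have := mul_mem (g4 (rt h02)) (inv_mem (g4 (rt h12)))
    rw [← e] at this
    simpa [mul_assoc] using this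
  rw [H.top _ g2 g5 g1, top_inf_eq] at hk
  exact (MonoidHom.ker_eq_bot_iff θ).1 hk

end HypA

end Cfsg.Agent.Pres
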