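import Cfsg.Agent.Pres.TypeA2
import Cfsg.Agent.Pres.Orb

/-! Counting the relations for `SL_n`. -/

set_option autoImplicit false
set_option linter.unusedSectionVars false
set_option linter.unusedSimpArgs false

namespace Cfsg.Agent.Pres

open Subgroup Cfsg.Agent.RGD Cfsg.Agent.RGD.RootComb Cfsg.Agent.SymAlt Equiv Equiv.Perm Matrix
open scoped commutatorElement

variable {m : ℕ} {K : Type*} [Field K] [Fintype K] {Γ : Subgroup (Perm (Fin (m + 1)))}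

/-- the relations among the transported generators -/
structure RelA (q : ℕ) {G : Type*} [Group G] {a0 a1 a2 : Fin (m + 1)} (h01 : a0 ≠ a1) (h02 : a0 ≠ a2)
    (h12 : a1 ≠ a2) (uu hh : ARoot (m + 1) → G) : Prop where
  t1 : ∀ a b c (h1 : a ≠ b) (h2 : a ≠ c) (h3 : b ≠ c), hh (rt h1) * hh (rt h3) = hh (rt h2)
  t2 : ∀ a b c (h1 : a ≠ b) (h2 : a ≠ c), b ≠ c → Commute (hh (rt h1)) (hh (rt h2))
  z : ((∀ c (h : c ≠ a2), c ≠ a0 → c ≠ a1 → Commute (hh (rt h)) (uu (rt h01))) ∧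
      Commute (hh (rt h02) * hh (rt h12)) (uu (rt h01))) ∨
    (4 ≤ m ∧ ∀ c d (k1 : a0 ≠ c) (k2 : a1 ≠ d) (k3 : a0 ≠ d) (k4 : a1 ≠ c), c ≠ d →
      Commute (hh (rt k1) * hh (rt k2)) (uu (rt h01)) ∨
        Commute (hh (rt k3) * hh (rt k4)) (uu (rt h01)))
  c1 : ∀ a b c (h1 : a ≠ b) (h2 : a ≠ c), b ≠ c → Commute (uu (rt h1)) (uu (rt h2)) ∧
    (4 ≤ m + 1 ∨ q ≠ 4 ∨ Commute (hh (rt h2) * uu (rt h1) * (hh (rt h2))⁻¹) (uu (rt h2)))
  c2 : ∀ a b c (h1 : a ≠ b) (h2 : a ≠ c) (h3 : c ≠ b), Commute (uu (rt h1)) (uu (rt h3)) ∧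
    (4 ≤ m + 1 ∨ q ≠ 4 ∨ Commute (hh (rt h2) * uu (rt h1) * (hh (rt h2))⁻¹) (uu (rt h3)))
  c3 : ∀ a b c (h1 : a ≠ b) (h2 : a ≠ c) (h3 : b ≠ c), ⁅uu (rt h1), uu (rt h3)⁆ = uu (rt h2) ∧
    (4 ≤ m + 1 ∨ q ≠ 4 ∨ ⁅hh (rt h2) * uu (rt h1) * (hh (rt h2))⁻¹, uu (rt h3)⁆ =
      hh (rt h1) * uu (rt h2) * (hh (rt h1))⁻¹)
  c4 : ∀ a b c d (h1 : a ≠ b) (h6 : c ≠ d), a ≠ c → b ≠ c → a ≠ d → b ≠ d →
    Commute (uu (rt h1)) (uu (rt h6)) ∨ ∃ (e : Fin (m + 1)) (k1 : c ≠ e) (k2 : e ≠ d), a ≠ e ∧ b ≠ e ∧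
      Commute (uu (rt h1)) (uu (rt k1)) ∧ Commute (uu (rt h1)) (uu (rt k2))

/-- the generators -/
noncomputable def fA (hΓ : ∀ σ ∈ Γ, sign σ ^ (m + 1 + 1) = 1) (ζ : Kˣ) (r₀ : ARoot (m + 1))
    {Y : Type} (g : Y → Γ) : Y ⊕ Bool → SpecialLinearGroup (Fin (m + 1)) K :=
  Sum.elim (fun y => iotaA K Γ hΓ (g y)) fun b => cond b (dA ζ r₀) ((slFam K (m + 1)).x r₀ 1)

/-- formal generators evaluated in the special linear group -/
noncomputable def eA (ζ : Kˣ) : ARoot (m + 1) ⊕ ARoot (m + 1) → SpecialLinearGroup (Fin (m + 1)) K :=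
  Sum.elim (fun r => (slFam K (m + 1)).x r 1) (dA ζ)

theorem hasRels_A (hm : 2 ≤ m) {ζ : Kˣ} (hζ : orderOf ζ = Fintype.card K - 1)
    (hΓ : ∀ σ ∈ Γ, sign σ ^ (m + 1 + 1) = 1)
    {a0 a1 a2 : Fin (m + 1)} (h01 : a0 ≠ a1) (h02 : a0 ≠ a2) (h12 : a1 ≠ a2)
    {Y : Type} {g : Y → Γ} {r0 : ℕ} (hg : HasRels g r0) (htop : closure (Set.range g) = ⊤)
    (h2 : ∀ r, ∃ γ : Γ, γ • rt h01 = r) (l : List Γ) (hl : ∀ σ ∈ l, σ • rt h01 = rt h01)
    (hl' : ∀ σ : Γ, σ • rt h01 = rt h01 → σ ∈ closure {σ | σ ∈ l})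
    (γ0 : Γ) (hγ0 : normalClosure {γ0} = ⊤) (L : List (FreeGroup (ARoot (m + 1) ⊕ ARoot (m + 1))))
    (hL : ∀ v ∈ L, FreeGroup.lift (eA ζ) v = 1) {rU : ℕ}
    (hU : ∀ {f : Y ⊕ Bool → SpecialLinearGroup (Fin (m + 1)) K} {x g u},
      IsAdd x (FreeGroup.lift f g) (FreeGroup.lift f u) (ζ : K) →
      Cost f rU fun C => ∃ φ : K → C.G, IsAdd φ (C.ev g) (C.ev u) (ζ : K))
    (hD : ∀ (G : Type) [Group G] (uu hh : ARoot (m + 1) → G),
      (∀ v ∈ L, ∀ γ : Γ, FreeGroup.lift (fun ψ => Sum.elim uu hh (γ • ψ)) v = 1) →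
      RelA (Fintype.card K) h01 h02 h12 uu hh) :
    HasRels (fA hΓ ζ (rt h01) g) (r0 + (l.length + l.length) + L.length + rU + 1) ∧
      closure (Set.range (fA hΓ ζ (rt h01) g)) = ⊤ := by
  set f := fA hΓ ζ (rt h01) g with hf
  obtain ⟨S, hb⟩ := exists_sec _ h2
  have hc : ∀ r, S.c r • rt h01 = r := fun r => by rw [← hb r, S.hc]
  obtain ⟨W, hW, c0⟩ := cost_hom (f := f) hg htop (iotaA K Γ hΓ) (fun y => FreeGroup.of (.inl y))
    (fun y => by simp [hf, fA])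
  set U : FreeGroup (Y ⊕ Bool) := FreeGroup.of (.inr false)
  set T : FreeGroup (Y ⊕ Bool) := FreeGroup.of (.inr true)
  have hu : FreeGroup.lift f U = (slFam K (m + 1)).x (rt h01) 1 := by simp [U, hf, fA]
  have ht : FreeGroup.lift f T = dA ζ (rt h01) := by simp [T, hf, fA]
  have huu : ∀ r, FreeGroup.lift f (S.tr W (fun _ => U) r) = (slFam K (m + 1)).x r 1 := fun r => by
    rw [Sec.tr, map_mul, map_mul, map_inv, hW, hu, iotaA_conj, hc]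
  have htt : ∀ r, FreeGroup.lift f (S.tr W (fun _ => T) r) = dA ζ r := fun r => by
    rw [Sec.tr, map_mul, map_mul, map_inv, hW, ht, iotaA_dA, hc]
  have hx := slFam_isAdd ζ h01 h02 h12
  have hV : (US (S.V W fun _ => AG (S.tr W (fun _ => T) (rt h02)) U) Set.univ).map
      (FreeGroup.lift f) = ⊤ := by
    have : Nontrivial (Fin (m + 1)) := ⟨_, _, h01⟩
    rw [eq_top_iff, ← slFam_top, US, iSup₂_le_iff]
    intro r _
    refine le_trans (le_of_eq ?_) (map_mono (le_US (Set.mem_univ r)))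
    rw [Sec.V, map_cj, map_AG, htt, hu, hW, ← hc r]
    have : AG (dA ζ (rt h02)) ((slFam K (m + 1)).x (rt h01) 1) = (slFam K (m + 1)).X (rt h01) := by
      ext y; rw [hx.mem_AG (spans_prim hζ), Fam.mem_X]
    rw [this, hc]
    conv_lhs => rw [← hc r]
    exact (Fam.cj_X_of _ one_ne_zero fun t => by rw [iotaA_conj, one_mul]).symm
  refine ⟨Cost.hasRels ?_, ?_⟩
  · have c1 := cost_cent (f := f) W l T fun σ hσ => by
      rw [hW, ht, Commute, SemiconjBy, ← mul_inv_eq_iff_eq_mul, iotaA_dA, hl σ hσ]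
    have c2 := cost_cent (f := f) W l U fun σ hσ => by
      rw [hW, hu, Commute, SemiconjBy, ← mul_inv_eq_iff_eq_mul, iotaA_conj, hl σ hσ]
    have c3 := cost_orb (f := f) (Γ := Γ) (Sum.elim (S.tr W fun _ => U) (S.tr W fun _ => T)) L
      fun v hv => by
        rw [← hL v hv]; congr 2; ext1 ψ; cases ψ
        · exact huu _
        · exact htt _
    have c4 := hU (f := f) (g := S.tr W (fun _ => T) (rt h02)) (u := U) (by rw [htt, hu]; exact hx)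
    have c5 := cost_mem (f := f) (W γ0) _ (hV ▸ mem_top _)
    refine ((((c0.and (c1.and c2)).and c3).and c4).and c5).imp ?_
    rintro c ⟨⟨⟨⟨⟨ρ, hρ, hρg⟩, k1, k2⟩, k3⟩, k4⟩, k5⟩
    have hρ' : (fun γ => c.ev (W γ)) = ρ := funext fun γ => (hρ γ).symm
    have s1 := fun σ hσ => k1 ρ hρ σ (hl' σ hσ)
    have s2 := fun σ hσ => k2 ρ hρ σ (hl' σ hσ)
    have e1 : ∀ a r, c.ev (S.tr W (fun _ => a) r) = S.tr ρ (fun _ => c.ev a) r := fun a r => by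
      rw [S.map_tr, hρ']
    have R := hD c.G (S.tr ρ fun _ => c.ev U) (S.tr ρ fun _ => c.ev T) (k3 ρ _ (by
      rintro (r | r) <;> exact (e1 _ _).symm) (by
      rintro γ (r | r)
      · exact S.tr_smul (a := fun _ => c.ev U) (r := r) (fun σ hσ => s2 σ (by rwa [hb] at hσ)) γ
      · exact S.tr_smul (a := fun _ => c.ev T) (r := r) (fun σ hσ => s1 σ (by rwa [hb] at hσ)) γ))
    have e2 : S.tr ρ (fun _ => c.ev U) (rt h01) = c.ev U := by
      rw [← hb (rt h01)]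
      exact S.tr_base (a := fun _ => c.ev U) (fun σ hσ => s2 σ (by rwa [hb] at hσ))
    have Rz := R.z
    rw [e2] at Rz
    rw [e1] at k4
    refine HypA.injective (hΓ := hΓ) (S := S) (ρ := ρ) (u := c.ev U) (h := c.ev T)
      ⟨hb, rfl, rfl, fun γ => by rw [hρ, c.comp, hW], by rw [c.comp, hu], by rw [c.comp, ht],
        s1, s2, R.t1, R.t2, Rz, k4, R.c1, R.c2, R.c3, R.c4, ⟨{γ0}, hγ0, ?_⟩, ?_⟩ hm hζ
    · rintro _ rfl
      rw [hρ]
      refine SetLike.le_def.1 ?_ k5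
      rw [map_le_iff_le_comap, US, iSup₂_le_iff]
      intro r _
      rw [← map_le_iff_le_comap, S.map_V, hρ']
      simp only [map_AG, e1]
      exact le_US (U := S.V ρ _) (Set.mem_univ r)
    · intro B b1 b2 b3
      refine c.top ?_
      rintro (y | _ | _)
      · rw [← hρg]; exact b3 _
      · exact b1
      · exact b2
  · rw [eq_top_iff, ← hV, ← FreeGroup.range_lift_eq_closure]
    exact map_le_range _ _

end Cfsg.Agent.Pres
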