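import Cfsg.Agent.Pres.TypeA3

/-! Bounded presentations of `SL_n`. -/

set_option autoImplicit false
set_option linter.unusedSectionVars false
set_option linter.unusedSimpArgs false

namespace Cfsg.Agent.Pres

open Subgroup Cfsg.Agent.RGD Cfsg.Agent.RGD.RootComb Cfsg.Agent.SymAlt Equiv Equiv.Perm Matrix
open scoped commutatorElement

variable {n : ℕ} {K : Type*} [Field K] [Fintype K]

/-- formal root element -/
abbrev fU {a b : Fin n} (h : a ≠ b) : FreeGroup (ARoot n ⊕ ARoot n) := FreeGroup.of (.inl (rt h))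
/-- formal torus element -/
abbrev fH {a b : Fin n} (h : a ≠ b) : FreeGroup (ARoot n ⊕ ARoot n) := FreeGroup.of (.inr (rt h))

theorem dA_commute_x (ζ : Kˣ) (r s t : ARoot n) (a : K)
    (h : eps r t.1.1 - eps r t.1.2 + (eps s t.1.1 - eps s t.1.2) = 0) :
    Commute (dA ζ r * dA ζ s) ((slFam K n).x t a) := by
  rw [Commute, SemiconjBy, ← mul_inv_eq_iff_eq_mul, show ∀ x, dA ζ r * dA ζ s * x *
    (dA ζ r * dA ζ s)⁻¹ = dA ζ r * (dA ζ s * x * (dA ζ s)⁻¹) * (dA ζ r)⁻¹ by intro x; group,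
    dA_conj, dA_conj, ← mul_assoc, ← zpow_add₀ ζ.ne_zero, h, zpow_zero, one_mul]

theorem dA_commute_x1 (ζ : Kˣ) (r t : ARoot n) (a : K) (h : eps r t.1.1 - eps r t.1.2 = 0) :
    Commute (dA ζ r) ((slFam K n).x t a) := by
  rw [Commute, SemiconjBy, ← mul_inv_eq_iff_eq_mul, dA_conj, h, zpow_zero, one_mul]

theorem x_commute (r s : ARoot n) (h : r.1.2 ≠ s.1.1) (h' : s.1.2 ≠ r.1.1) (t u : K) :
    Commute ((slFam K n).x r t) ((slFam K n).x s u) :=
  commutatorElement_eq_one_iff_commute.1 (slFam_commute r s h h' t u)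

theorem alt_sign (m : ℕ) : ∀ σ ∈ alternatingGroup (Fin (m + 1)), sign σ ^ (m + 1 + 1) = 1 :=
  fun σ hσ => by rw [mem_alternatingGroup.1 hσ, one_pow]

theorem sl_big {m : ℕ} (hm : 4 ≤ m) : ∃ f : Fin 3 ⊕ Bool → SpecialLinearGroup (Fin (m + 1)) K,
    HasRels f (if m = 4 then 21 else 23) ∧ closure (Set.range f) = ⊤ := by
  obtain ⟨ζ, hζ⟩ := exists_prim K
  obtain ⟨g, hg, htop, -⟩ := alt_three (m + 1) (by omega)
  obtain ⟨a0, -⟩ := exists_fin_ne (n := m + 1) [] (by simp)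
  obtain ⟨a1, k1⟩ := exists_fin_ne [a0] (by simp; omega)
  obtain ⟨a2, k2⟩ := exists_fin_ne [a0, a1] (by simp; omega)
  obtain ⟨a3, k3⟩ := exists_fin_ne [a0, a1, a2] (by simp; omega)
  obtain ⟨a4, k4⟩ := exists_fin_ne [a0, a1, a2, a3] (by simp; omega)
  simp only [List.mem_cons, List.not_mem_nil, or_false, not_or] at k1 k2 k3 k4
  have h01 : a0 ≠ a1 := Ne.symm k1
  have h02 : a0 ≠ a2 := Ne.symm k2.1
  have h12 : a1 ≠ a2 := Ne.symm k2.2
  have h03 : a0 ≠ a3 := Ne.symm k3.1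
  have h13 : a1 ≠ a3 := Ne.symm k3.2.1
  have h23 : a2 ≠ a3 := Ne.symm k3.2.2
  have hc : 5 ≤ Fintype.card (Fin (m + 1)) := by simp; omega
  have hT : ∀ σ : Perm (Fin (m + 1)), σ • rt h01 = rt h01 ↔ ∀ x, x ∉ ({a0, a1}ᶜ : Set _) → σ x = x :=
    fun σ => ⟨fun h x hx => by
      have e := congrArg Subtype.val h
      rcases not_not.1 hx with rfl | rfl
      · exact congrArg Prod.fst e
      · exact congrArg Prod.snd e,
    fun h => Subtype.ext (Prod.ext (h a0 (by simp)) (h a1 (by simp)))⟩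
  obtain ⟨l, hl0, hl, hl'⟩ : ∃ l : List (alternatingGroup (Fin (m + 1))),
      l.length = (if m = 4 then 1 else 2) ∧ (∀ σ ∈ l, σ • rt h01 = rt h01) ∧
      ∀ σ : alternatingGroup (Fin (m + 1)), σ • rt h01 = rt h01 → σ ∈ closure {σ | σ ∈ l} := by
    split_ifs with h4
    · refine ⟨[⟨c3 a2 a3 a4, sign_c3 h23 k4.2.2.1⟩], rfl, ?_, fun σ hσ => mem_closure_sub fun B hB => ?_⟩
      · simp only [List.mem_singleton, forall_eq]
        exact (hT _).2 (c3_fix (by simp [k2]) (by simp [k3]) (by simp [k4]))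
      · refine mem_of_c3_mem B h23 ({a0, a1}ᶜ) (fun i hi j1 j2 => ?_) σ.1 σ.2
          fun y _ _ h => (hT _).1 hσ y h
        have : i = a4 := by
          by_contra j3
          simp only [Set.mem_compl_iff, Set.mem_insert_iff, Set.mem_singleton_iff, not_or] at hi
          have := List.Nodup.length_le_card (l := [i, a4, a3, a2, a1, a0]) (by
            simp [hi, j1, j2, j3, k1, k2, k3, k4])
          simp at this; omega
        rw [this]; exact hB ⟨_, _⟩ (List.mem_singleton_self _)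
    · obtain ⟨σ, τ, s1, s2, s3, s4, s5⟩ := gen_fix_alt ({a0, a1}ᶜ : Set (Fin (m + 1)))
      refine ⟨[⟨σ, s1⟩, ⟨τ, s2⟩], rfl, ?_, fun γ hγ => mem_closure_sub fun B hB =>
        s5 B (hB ⟨σ, s1⟩ (by simp)) (hB ⟨τ, s2⟩ (by simp)) γ.1 γ.2 ((hT _).1 hγ)⟩
      simp only [List.mem_cons, List.not_mem_nil, or_false, forall_eq_or_imp, forall_eq]
      exact ⟨(hT _).2 s3, (hT _).2 s4⟩
  have := hasRels_A (K := K) (by omega) hζ (alt_sign m) h01 h02 h12 hg htop (fun r => by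
      obtain ⟨σ, s1, s2, s3⟩ := exists_even2 (by omega) h01 r.2
      exact ⟨⟨σ, s1⟩, Subtype.ext (Prod.ext s2 s3)⟩) l hl hl' _
    (normalClosure_c3 h01 h02.symm h12.symm)
    [fH h01 * fH h12 * (fH h02)⁻¹, ⁅fH h01, fH h02⁆, ⁅fH h02 * fH h13, fU h01⁆, ⁅fU h01, fU h02⁆,
      ⁅fU h01, fU h12.symm⁆, ⁅fU h01, fU h12⁆ * (fU h02)⁻¹, ⁅fU h01, fU h23⁆] ?_ (cost_add hζ) ?_
  · refine ⟨_, this.1.mono ?_, this.2⟩
    rw [hl0]; split_ifs <;> simp
  · simp only [List.mem_cons, List.not_mem_nil, or_false, forall_eq_or_imp, forall_eq, map_mul,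
      map_inv, map_commutatorElement, FreeGroup.lift_apply_of, mul_inv_eq_one,
      commutatorElement_eq_one_iff_commute, eA, Sum.elim_inl, Sum.elim_inr]
    refine ⟨dA_mul _ _ _ _, dA_commute _ _ _, dA_commute_x _ _ _ _ _ ?_, x_commute _ _ h01.symm
      h02.symm _ _, x_commute _ _ h12 h01.symm _ _, by rw [slFam_comm, mul_one],
      x_commute _ _ h12 h03.symm _ _⟩
    simp [eps, h01, h01.symm, h12, h03]
  · intro G _ uu hh H
    simp only [List.mem_cons, List.not_mem_nil, or_false, forall_eq_or_imp, forall_eq, map_mul,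
      map_inv, map_commutatorElement, FreeGroup.lift_apply_of, mul_inv_eq_one,
      commutatorElement_eq_one_iff_commute] at H
    obtain ⟨t1, t2, z, c1, c2, c3, c4⟩ := H
    have z' : ∀ σ : Perm (Fin (m + 1)), sign σ = 1 → ∀ a b c d (h : a ≠ b) (j1 : a ≠ c) (j2 : b ≠ d),
        σ a0 = a → σ a1 = b → σ a2 = c → σ a3 = d →
        Commute (hh (rt j1) * hh (rt j2)) (uu (rt h)) := by
      rintro σ s _ _ _ _ _ _ _ rfl rfl rfl rfl; exact z ⟨σ, s⟩
    have c4' : ∀ σ : Perm (Fin (m + 1)), sign σ = 1 → ∀ a b c d (h : a ≠ b) (j : c ≠ d),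
        σ a0 = a → σ a1 = b → σ a2 = c → σ a3 = d → Commute (uu (rt h)) (uu (rt j)) := by
      rintro σ s _ _ _ _ _ _ rfl rfl rfl rfl; exact c4 ⟨σ, s⟩
    refine ⟨fun a b c h1 h2 h3 => ?_, fun a b c h1 h2 h3 => ?_, Or.inr ⟨hm, ?_⟩,
      fun a b c h1 h2 h3 => ⟨?_, Or.inl (by omega)⟩, fun a b c h1 h2 h3 => ⟨?_, Or.inl (by omega)⟩,
      fun a b c h1 h2 h3 => ⟨?_, Or.inl (by omega)⟩, ?_⟩
    · obtain ⟨σ, s, rfl, rfl, rfl⟩ := exists_even3 hc h01 h02 h12 h1 h2 h3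
      exact t1 ⟨σ, s⟩
    · obtain ⟨σ, s, rfl, rfl, rfl⟩ := exists_even3 hc h01 h02 h12 h1 h2 h3
      exact t2 ⟨σ, s⟩
    · intro c d j1 j2 j3 j4 j5
      obtain ⟨σ, s0, s1, s2, s3⟩ := exists_perm4 h01 h02 h03 h12 h13 h23 h01 j1 j3 j4 j2 j5
      by_cases s : sign σ = 1
      · exact Or.inl (z' σ s _ _ _ _ _ _ _ s0 s1 s2 s3)
      · refine Or.inr (z' _ (sign_mul_swap s h23) _ _ _ _ _ _ _ ?_ ?_ ?_ ?_) <;>
          simp [swap_apply_of_ne_of_ne, *]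
    · obtain ⟨σ, s, rfl, rfl, rfl⟩ := exists_even3 hc h01 h02 h12 h1 h2 h3
      exact c1 ⟨σ, s⟩
    · obtain ⟨σ, s, rfl, rfl, rfl⟩ := exists_even3 hc h01 h02 h12 h1 h2 h3.symm
      exact c2 ⟨σ, s⟩
    · obtain ⟨σ, s, rfl, rfl, rfl⟩ := exists_even3 hc h01 h02 h12 h1 h2 h3
      exact c3 ⟨σ, s⟩
    · intro a b c d h1 h6 h2 h3 h4 h5
      obtain ⟨σ, s0, s1, s2, s3⟩ := exists_perm4 h01 h02 h03 h12 h13 h23 h1 h2 h4 h3 h5 h6
      by_cases s : sign σ = 1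
      · exact Or.inl (c4' σ s _ _ _ _ _ _ s0 s1 s2 s3)
      · obtain ⟨e, he⟩ := exists_fin_ne [a, b, c, d] (by simp; omega)
        simp only [List.mem_cons, List.not_mem_nil, or_false, not_or] at he
        obtain ⟨e1, e2, e3, e4⟩ := he
        have e1' := Ne.symm e1
        have e2' := Ne.symm e2
        have e3' := Ne.symm e3
        have e4' := Ne.symm e4
        have h6' := Ne.symm h6
        refine Or.inr ⟨e, e3', e4, e1', e2',
          c4' _ (sign_swap_mul s e4) _ _ _ _ _ _ ?_ ?_ ?_ ?_,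
          c4' _ (sign_swap_mul s e3) _ _ _ _ _ _ ?_ ?_ ?_ ?_⟩ <;>
          simp [swap_apply_of_ne_of_ne, *]

theorem sl_four : ∃ f : Fin 2 ⊕ Bool → SpecialLinearGroup (Fin 4) K,
    HasRels f 19 ∧ closure (Set.range f) = ⊤ := by
  obtain ⟨ζ, hζ⟩ := exists_prim K
  obtain ⟨g, hg, htop⟩ := alt_four
  have h01 : (0 : Fin 4) ≠ 1 := by decide
  have h02 : (0 : Fin 4) ≠ 2 := by decide
  have h12 : (1 : Fin 4) ≠ 2 := by decide
  have h03 : (0 : Fin 4) ≠ 3 := by decide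
  have h13 : (1 : Fin 4) ≠ 3 := by decide
  have h23 : (2 : Fin 4) ≠ 3 := by decide
  have := hasRels_A (K := K) (m := 3) (by omega) hζ (alt_sign 3) h01 h02 h12 hg htop (fun r => by
      obtain ⟨σ, s1, s2, s3⟩ := exists_even2 (by simp) h01 r.2
      exact ⟨⟨σ, s1⟩, Subtype.ext (Prod.ext s2 s3)⟩) [] (by simp) ?_ _
    (normalClosure_c3 h01 h02.symm h12.symm)
    [fH h01 * fH h12 * (fH h02)⁻¹, fH h02 * fH h12.symm * (fH h01)⁻¹, ⁅fH h01, fH h02⁆,
      ⁅fH h23.symm, fU h01⁆, ⁅fH h02 * fH h12, fU h01⁆,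
      ⁅fU h01, fU h02⁆, ⁅fU h01, fU h12.symm⁆, ⁅fU h01, fU h12⁆ * (fU h02)⁻¹,
      ⁅fU h02, fU h12.symm⁆ * (fU h01)⁻¹, ⁅fU h01, fU h23⁆, ⁅fU h01, fU h23.symm⁆] ?_
      (cost_add hζ) ?_
  · exact ⟨_, this.1, this.2⟩
  · intro σ hσ
    have e := congrArg Subtype.val hσ
    have key : ∀ σ : Perm (Fin 4), sign σ = 1 → σ 0 = 0 → σ 1 = 1 → σ = 1 := by decide
    rw [show σ = 1 from Subtype.ext (key σ.1 σ.2 (congrArg Prod.fst e) (congrArg Prod.snd e))]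
    exact one_mem _
  · simp only [List.mem_cons, List.not_mem_nil, or_false, forall_eq_or_imp, forall_eq, map_mul,
      map_inv, map_commutatorElement, FreeGroup.lift_apply_of, mul_inv_eq_one,
      commutatorElement_eq_one_iff_commute, eA, Sum.elim_inl, Sum.elim_inr]
    exact ⟨dA_mul _ _ _ _, dA_mul _ _ _ _, dA_commute _ _ _, dA_commute_x1 _ _ _ _ rfl,
      dA_commute_x _ _ _ _ _ rfl, x_commute _ _ h01.symm
      h02.symm _ _, x_commute _ _ h12 h01.symm _ _, by rw [slFam_comm, mul_one],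
      by rw [slFam_comm, mul_one], x_commute _ _ h12 h03.symm _ _, x_commute _ _ h13 h02.symm _ _⟩
  · intro G _ uu hh H
    simp only [List.mem_cons, List.not_mem_nil, or_false, forall_eq_or_imp, forall_eq, map_mul,
      map_inv, map_commutatorElement, FreeGroup.lift_apply_of, mul_inv_eq_one,
      commutatorElement_eq_one_iff_commute] at H
    obtain ⟨t1, t1', t2, z1, z2, c1, c2, c3, c3', c4, c4'⟩ := H
    have tri : ∀ a b c : Fin 4, a ≠ b → a ≠ c → b ≠ c →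
        (∃ σ : Perm (Fin 4), sign σ = 1 ∧ σ 0 = a ∧ σ 1 = b ∧ σ 2 = c) ∨
        ((∃ σ : Perm (Fin 4), sign σ = 1 ∧ σ 0 = a ∧ σ 2 = b ∧ σ 1 = c) ∧
          ∃ σ : Perm (Fin 4), sign σ = 1 ∧ σ 2 = a ∧ σ 1 = b ∧ σ 0 = c) := fun a b c h1 h2 h3 => by
      obtain ⟨σ, s0, s1, s2⟩ := exists_perm3 h01 h02 h12 h1 h2 h3
      by_cases s : sign σ = 1
      · exact Or.inl ⟨σ, s, s0, s1, s2⟩
      · refine Or.inr ⟨⟨_, sign_mul_swap s h12, ?_, ?_, ?_⟩, ⟨_, sign_mul_swap s h02, ?_, ?_, ?_⟩⟩ <;>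
          simp [swap_apply_of_ne_of_ne, *]
    refine ⟨fun a b c h1 h2 h3 => ?_, fun a b c h1 h2 h3 => ?_, Or.inl ⟨?_, z2 1⟩,
      fun a b c h1 h2 h3 => ⟨?_, Or.inl le_rfl⟩, fun a b c h1 h2 h3 => ⟨?_, Or.inl le_rfl⟩,
      fun a b c h1 h2 h3 => ⟨?_, Or.inl le_rfl⟩, ?_⟩
    · rcases tri a b c h1 h2 h3 with ⟨σ, s, rfl, rfl, rfl⟩ | ⟨⟨σ, s, rfl, rfl, rfl⟩, -⟩
      · exact t1 ⟨σ, s⟩
      · exact t1' ⟨σ, s⟩
    · rcases tri a b c h1 h2 h3 with ⟨σ, s, rfl, rfl, rfl⟩ | ⟨⟨σ, s, rfl, rfl, rfl⟩, -⟩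
      · exact t2 ⟨σ, s⟩
      · exact (t2 ⟨σ, s⟩).symm
    · intro c j1 j2 j3
      obtain rfl : c = 3 := by revert c; decide
      exact z1 1
    · rcases tri a b c h1 h2 h3 with ⟨σ, s, rfl, rfl, rfl⟩ | ⟨⟨σ, s, rfl, rfl, rfl⟩, -⟩
      · exact c1 ⟨σ, s⟩
      · exact (c1 ⟨σ, s⟩).symm
    · rcases tri a b c h1 h2 h3.symm with ⟨σ, s, rfl, rfl, rfl⟩ | ⟨-, ⟨σ, s, rfl, rfl, rfl⟩⟩
      · exact c2 ⟨σ, s⟩
      · exact (c2 ⟨σ, s⟩).symm
    · rcases tri a b c h1 h2 h3 with ⟨σ, s, rfl, rfl, rfl⟩ | ⟨⟨σ, s, rfl, rfl, rfl⟩, -⟩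
      · exact c3 ⟨σ, s⟩
      · exact c3' ⟨σ, s⟩
    · intro a b c d h1 h6 h2 h3 h4 h5
      obtain ⟨σ, rfl, rfl, rfl, rfl⟩ := exists_perm4 h01 h02 h03 h12 h13 h23 h1 h2 h4 h3 h5 h6
      by_cases s : sign σ = 1
      · exact Or.inl (c4 ⟨σ, s⟩)
      · exact Or.inl (c4' ⟨_, sign_mul_swap s h23⟩)

theorem sl_three : ∃ f : Fin 2 ⊕ Bool → SpecialLinearGroup (Fin 3) K,
    HasRels f 14 ∧ closure (Set.range f) = ⊤ := by
  obtain ⟨ζ, hζ⟩ := exists_prim K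
  obtain ⟨g, hg, htop⟩ := sym_three_small
  have h01 : (0 : Fin 3) ≠ 1 := by decide
  have h02 : (0 : Fin 3) ≠ 2 := by decide
  have h12 : (1 : Fin 3) ≠ 2 := by decide
  have hs : Function.Surjective (topEquiv (G := Perm (Fin 3))).symm.toMonoidHom :=
    topEquiv.symm.surjective
  have key := @hasRels_A 2 K _ _ ⊤ le_rfl _ hζ (fun σ _ => by
      rcases Int.units_eq_one_or (sign σ) with h | h <;> rw [h] <;> rfl) _ _ _ h01 h02 h12 _ _ _
    (hg.comp (topEquiv (G := Perm (Fin 3))).symm.toMonoidHom topEquiv.symm.injective)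
    (closure_range_comp htop _ hs) (fun r => by
      obtain ⟨σ, s2, s3⟩ := exists_perm_two h01 r.2
      exact ⟨⟨σ, trivial⟩, Subtype.ext (Prod.ext s2 s3)⟩) [] (by simp) (fun σ hσ => by
      have e := congrArg Subtype.val hσ
      have key : ∀ σ : Perm (Fin 3), σ 0 = 0 → σ 1 = 1 → σ = 1 := by decide
      rw [show σ = 1 from Subtype.ext (key σ.1 (congrArg Prod.fst e) (congrArg Prod.snd e))]
      exact one_mem _) ⟨swap 0 1, trivial⟩ (by
      have := map_normalClosure {swap 0 1} _ hs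
      rw [normalClosure_swap h01, Set.image_singleton, map_top_of_surjective _ hs] at this
      exact this.symm)
  have tri : ∀ a b c : Fin 3, a ≠ b → a ≠ c → b ≠ c →
      ∃ σ : Perm (Fin 3), σ 0 = a ∧ σ 1 = b ∧ σ 2 = c := fun a b c => exists_perm3 h01 h02 h12
  have four : ∀ a b c d : Fin 3, a ≠ b → c ≠ d → a ≠ c → b ≠ c → a ≠ d → b ≠ d → False := by omega
  have three : ∀ c : Fin 3, c ≠ 2 → c ≠ 0 → c ≠ 1 → False := by decide
  by_cases h4 : Fintype.card K = 4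
  · have h2 : (2 : K) = 0 := by
      have := FiniteField.cast_card_eq_zero K
      rw [h4] at this
      have e : (2 : K) ^ 2 = 0 := by rw [← this]; norm_num
      exact pow_eq_zero_iff (by norm_num) |>.1 e
    have := key [fH h01 * fH h12 * (fH h02)⁻¹, ⁅fH h01, fH h02⁆, ⁅fH h02 * fH h12, fU h01⁆,
      ⁅fU h01, fU h02⁆, ⁅fU h01, fU h12.symm⁆, ⁅fU h01, fU h12⁆ * (fU h02)⁻¹,
      ⁅fH h02 * fU h01 * (fH h02)⁻¹, fU h02⁆, ⁅fH h02 * fU h01 * (fH h02)⁻¹, fU h12.symm⁆,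
      ⁅fH h02 * fU h01 * (fH h02)⁻¹, fU h12⁆ * (fH h01 * fU h02 * (fH h01)⁻¹)⁻¹] ?_
      (fun hx => cost_add_four hx (spans_prim hζ) h2 (spans_four hζ h4).1) ?_
    · exact ⟨_, this.1, this.2⟩
    · simp only [List.mem_cons, List.not_mem_nil, or_false, forall_eq_or_imp, forall_eq, map_mul,
        map_inv, map_commutatorElement, FreeGroup.lift_apply_of, mul_inv_eq_one,
        commutatorElement_eq_one_iff_commute, eA, Sum.elim_inl, Sum.elim_inr, dA_conj]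
      refine ⟨dA_mul _ _ _ _, dA_commute _ _ _, dA_commute_x _ _ _ _ _ rfl,
        x_commute _ _ h01.symm h02.symm _ _, x_commute _ _ h12 h01.symm _ _,
        by rw [slFam_comm, mul_one], x_commute _ _ h01.symm h02.symm _ _,
        x_commute _ _ h12 h01.symm _ _, ?_⟩
      rw [slFam_comm _ _ h02, mul_one]; rfl
    · intro G _ uu hh H
      simp only [List.mem_cons, List.not_mem_nil, or_false, forall_eq_or_imp, forall_eq, map_mul,
        map_inv, map_commutatorElement, FreeGroup.lift_apply_of, mul_inv_eq_one,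
        commutatorElement_eq_one_iff_commute] at H
      obtain ⟨t1, t2, z2, c1, c2, c3, c1', c2', c3'⟩ := H
      refine ⟨fun a b c h1 h2 h3 => ?_, fun a b c h1 h2 h3 => ?_,
        Or.inl ⟨fun c j1 j2 j3 => (three c j1 j2 j3).elim, z2 1⟩,
        fun a b c h1 h2 h3 => ?_, fun a b c h1 h2 h3 => ?_, fun a b c h1 h2 h3 => ?_,
        fun a b c d h1 h2 h3 h4 h5 h6 => (four a b c d h1 h2 h3 h4 h5 h6).elim⟩ <;>
        obtain ⟨σ, rfl, rfl, rfl⟩ := tri a b c h1 h2 (by first | exact h3 | exact h3.symm)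
      · exact t1 ⟨σ, trivial⟩
      · exact t2 ⟨σ, trivial⟩
      · exact ⟨c1 ⟨σ, trivial⟩, Or.inr (Or.inr (c1' ⟨σ, trivial⟩))⟩
      · exact ⟨c2 ⟨σ, trivial⟩, Or.inr (Or.inr (c2' ⟨σ, trivial⟩))⟩
      · exact ⟨c3 ⟨σ, trivial⟩, Or.inr (Or.inr (c3' ⟨σ, trivial⟩))⟩
  · have := key [fH h01 * fH h12 * (fH h02)⁻¹, ⁅fH h01, fH h02⁆, ⁅fH h02 * fH h12, fU h01⁆,
      ⁅fU h01, fU h02⁆, ⁅fU h01, fU h12.symm⁆, ⁅fU h01, fU h12⁆ * (fU h02)⁻¹] ?_ (cost_add hζ) ?_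
    · exact ⟨_, this.1.mono (by simp), this.2⟩
    · simp only [List.mem_cons, List.not_mem_nil, or_false, forall_eq_or_imp, forall_eq, map_mul,
        map_inv, map_commutatorElement, FreeGroup.lift_apply_of, mul_inv_eq_one,
        commutatorElement_eq_one_iff_commute, eA, Sum.elim_inl, Sum.elim_inr, dA_conj]
      exact ⟨dA_mul _ _ _ _, dA_commute _ _ _, dA_commute_x _ _ _ _ _ rfl,
        x_commute _ _ h01.symm h02.symm _ _, x_commute _ _ h12 h01.symm _ _,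
        by rw [slFam_comm, mul_one]⟩
    · intro G _ uu hh H
      simp only [List.mem_cons, List.not_mem_nil, or_false, forall_eq_or_imp, forall_eq, map_mul,
        map_inv, map_commutatorElement, FreeGroup.lift_apply_of, mul_inv_eq_one,
        commutatorElement_eq_one_iff_commute] at H
      obtain ⟨t1, t2, z2, c1, c2, c3⟩ := H
      refine ⟨fun a b c h1 h2 h3 => ?_, fun a b c h1 h2 h3 => ?_,
        Or.inl ⟨fun c j1 j2 j3 => (three c j1 j2 j3).elim, z2 1⟩,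
        fun a b c h1 h2 h3 => ?_, fun a b c h1 h2 h3 => ?_, fun a b c h1 h2 h3 => ?_,
        fun a b c d h1 h2 h3 h4 h5 h6 => (four a b c d h1 h2 h3 h4 h5 h6).elim⟩ <;>
        obtain ⟨σ, rfl, rfl, rfl⟩ := tri a b c h1 h2 (by first | exact h3 | exact h3.symm)
      · exact t1 ⟨σ, trivial⟩
      · exact t2 ⟨σ, trivial⟩
      · exact ⟨c1 ⟨σ, trivial⟩, Or.inr (Or.inl h4)⟩
      · exact ⟨c2 ⟨σ, trivial⟩, Or.inr (Or.inl h4)⟩
      · exact ⟨c3 ⟨σ, trivial⟩, Or.inr (Or.inl h4)⟩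

theorem isCyclic_center_sl (n : ℕ) : IsCyclic (center (SpecialLinearGroup (Fin n) K)) :=
  isCyclic_of_surjective _ (SpecialLinearGroup.center_equiv_rootsOfUnity (n := Fin n)
    (R := K)).symm.surjective

/-- seven generators and 25 relations -/
theorem sl_seven {n : ℕ} (hn : 3 ≤ n) : ∃ f : Fin 7 → SpecialLinearGroup (Fin n) K,
    HasRels f 25 ∧ closure (Set.range f) = ⊤ := by
  rcases hn.eq_or_lt with rfl | hn
  · obtain ⟨f, h1, h2⟩ := sl_three (K := K)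
    exact hasRels_fin h1 h2 (by simp) (by simp)
  rcases (Nat.succ_le_of_lt hn).eq_or_lt with rfl | hn
  · obtain ⟨f, h1, h2⟩ := sl_four (K := K)
    exact hasRels_fin h1 h2 (by simp) (by simp)
  obtain ⟨m, rfl⟩ : ∃ m, n = m + 1 := ⟨n - 1, by omega⟩
  obtain ⟨f, h1, h2⟩ := sl_big (K := K) (m := m) (by omega)
  exact hasRels_fin h1 h2 (by simp) (by split_ifs <;> simp)

end Cfsg.Agent.Pres
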