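import Cfsg.Agent.Pres.TypeA
import Cfsg.Agent.Pres.Orb
import Cfsg.Agent.RG.BC

/-! Wreath products acting on signed indices. -/

set_option autoImplicit false
set_option linter.unusedSectionVars false

namespace Cfsg.Agent.Pres

open Equiv Equiv.Perm Subgroup Cfsg.Agent.SymAlt Cfsg.Agent.RG SemidirectProduct

section ix
variable {m : ℕ}

/-- the support of a signed index -/
def sup (a : Ix m) : Fin (m + 1) :=
  ⟨if (a : ℕ) ≤ m then a else 2 * m + 1 - a, by have := a.2; split_ifs <;> omega⟩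

/-- the sign of a signed index -/
def sgn (a : Ix m) : ℤˣ := if (a : ℕ) ≤ m then 1 else -1

/-- the signed index with given support and sign -/
def mkI (i : Fin (m + 1)) (s : ℤˣ) : Ix m :=
  ⟨if s = 1 then i else 2 * m + 1 - i, by have := i.2; split_ifs <;> omega⟩

@[simp] theorem sup_mkI (i : Fin (m + 1)) (s : ℤˣ) : sup (mkI i s) = i := by
  have := i.2
  ext; simp only [sup, mkI]; split_ifs <;> omega

@[simp] theorem sgn_mkI (i : Fin (m + 1)) (s : ℤˣ) : sgn (mkI i s) = s := by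
  have := i.2
  rcases Int.units_eq_one_or s with rfl | rfl
  · simp [sgn, mkI]; omega
  · simp [sgn, mkI]; omega

theorem mkI_sup_sgn (a : Ix m) : mkI (sup a) (sgn a) = a := by
  have := a.2
  ext; simp only [sup, mkI, sgn]
  by_cases h : (a : ℕ) ≤ m
  · simp [h]
  · simp [h]; omega

theorem ix_ext {a b : Ix m} (h1 : sup a = sup b) (h2 : sgn a = sgn b) : a = b := by
  rw [← mkI_sup_sgn a, h1, h2, mkI_sup_sgn]

@[simp] theorem sup_rev (a : Ix m) : sup a.rev = sup a := by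
  have := a.2
  ext; simp only [sup, Fin.val_rev]; split_ifs <;> omega

@[simp] theorem sgn_rev (a : Ix m) : sgn a.rev = - sgn a := by
  have := a.2
  simp only [sgn, Fin.val_rev]
  split_ifs <;> first | omega | simp

theorem mkI_rev (i : Fin (m + 1)) (s : ℤˣ) : (mkI i s).rev = mkI i (-s) :=
  ix_ext (by simp) (by simp)

theorem sup_eq_iff {a b : Ix m} : sup a = sup b ↔ a = b ∨ a = b.rev := by
  refine ⟨fun h => ?_, by rintro (rfl | rfl) <;> simp⟩
  rcases Int.units_eq_one_or (sgn a * sgn b) with e | e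
  · refine Or.inl (ix_ext h ?_)
    rw [eq_inv_of_mul_eq_one_left e, Int.units_inv_eq_self]
  · refine Or.inr (ix_ext (by simpa using h) ?_)
    rw [sgn_rev, ← mul_left_inj (sgn b), e, neg_mul, Int.units_mul_self]

theorem ne_of_sup {a b : Ix m} (h : sup a ≠ sup b) : a ≠ b := fun e => h (by rw [e])

theorem ne_rev_of_sup {a b : Ix m} (h : sup a ≠ sup b) : b ≠ a.rev := fun e => h (by simp [e])

theorem sup_ne_of {a b : Ix m} (h : a ≠ b) (h' : b ≠ a.rev) : sup a ≠ sup b := fun e => by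
  rcases sup_eq_iff.1 e.symm with e | e
  exacts [h e.symm, h' e]

theorem sgn_le {a : Ix m} : sgn a = 1 ↔ (a : ℕ) ≤ m := by
  unfold sgn; split_ifs with h <;> simp [h]

end ix

/-- wreath products with the symmetric group -/
abbrev Wr (B : Type) [CommGroup B] (n : ℕ) : Type := (Fin n → B) ⋊[mulAutArrow] Perm (Fin n)

/-- a sign character -/
class SgnHom (B : Type) [CommGroup B] where
  /-- the character -/
  χ : B →* ℤˣ
  /-- an element of sign `-1` -/
  g0 : B
  χ_g0 : χ g0 = -1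

instance : SgnHom ℤˣ := ⟨MonoidHom.id _, -1, rfl⟩

instance : SgnHom (Multiplicative ℤ) := ⟨zpowersHom ℤˣ (-1), Multiplicative.ofAdd 1, by simp⟩

section wr
variable {B : Type} [CommGroup B] {n : ℕ}

theorem arrow_apply (σ : Perm (Fin n)) (ν : Fin n → B) (i : Fin n) :
    (mulAutArrow σ : MulAut (Fin n → B)) ν i = ν (σ⁻¹ i) := rfl

/-- an element of the base group -/
def wE (i : Fin n) (b : B) : Wr B n := inl (Pi.mulSingle i b)

theorem arrow_single (σ : Perm (Fin n)) (i : Fin n) (b : B) :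
    (mulAutArrow σ : MulAut (Fin n → B)) (Pi.mulSingle i b) = Pi.mulSingle (σ i) b := by
  ext j
  rw [arrow_apply, Pi.mulSingle_apply, Pi.mulSingle_apply]
  simp only [Perm.inv_eq_iff_eq]

theorem conj_wE (g : Wr B n) (i : Fin n) (b : B) : g * wE i b * g⁻¹ = wE (g.right i) b := by
  rw [mul_inv_eq_iff_eq_mul]
  ext1
  · simp [wE, arrow_single, mul_comm]
  · simp [wE]

theorem wE_mul (i : Fin n) (b c : B) : wE i (b * c) = wE i b * wE i c := by
  rw [wE, Pi.mulSingle_mul, map_mul]; rfl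

theorem wE_zpow (i : Fin n) (b : B) (k : ℤ) : wE i (b ^ k) = wE i b ^ k := by
  rw [wE, wE, ← map_zpow, ← Pi.mulSingle_zpow]

theorem wE_one (i : Fin n) : wE i (1 : B) = 1 := by rw [wE, Pi.mulSingle_one, map_one]

theorem wE_commute (i j : Fin n) (b c : B) : Commute (wE i b) (wE j c) :=
  (Commute.all _ _).map inl

theorem inl_mem {H : Subgroup (Wr B n)} {ν : Fin n → B} (h : ∀ i, wE i (ν i) ∈ H) : inl ν ∈ H := by
  rw [← Finset.univ_prod_mulSingle ν]
  exact prod_mem (S := H.comap inl) fun i _ => h i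

theorem mem_of_parts {H : Subgroup (Wr B n)} {g : Wr B n} (h1 : inl g.left ∈ H)
    (h2 : inr g.right ∈ H) : g ∈ H := by
  rw [← inl_left_mul_inr_right g]; exact mul_mem h1 h2

/-- homomorphisms from a wreath product -/
theorem exists_wr_lift {G : Type*} [Group G] (ρ : Perm (Fin n) →* G) (ω : Fin n → B →* G)
    (hc : Pairwise fun i j => ∀ x y, Commute (ω i x) (ω j y))
    (he : ∀ σ i b, ρ σ * ω i b * (ρ σ)⁻¹ = ω (σ i) b) :
    ∃ φ : Wr B n →* G, (∀ σ, φ (inr σ) = ρ σ) ∧ ∀ i b, φ (wE i b) = ω i b := by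
  refine ⟨lift (MonoidHom.noncommPiCoprod ω hc) ρ fun σ => ?_, fun σ => lift_inr _ _ _ _,
    fun i b => by rw [wE, lift_inl, MonoidHom.noncommPiCoprod_mulSingle]⟩
  refine MonoidHom.pi_ext fun i b => ?_
  simp [arrow_single, he]

variable [SgnHom B] {m : ℕ}

instance wrAction : MulAction (Wr B (m + 1)) (Ix m) where
  smul g a := mkI (g.right (sup a)) (SgnHom.χ (g.left (g.right (sup a))) * sgn a)
  one_smul a := by
    change mkI _ _ = _
    simp [mkI_sup_sgn]
  mul_smul g h a := by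
    change mkI _ _ = mkI (g.right (sup (mkI _ _)))
      (SgnHom.χ (g.left (g.right (sup (mkI _ _)))) * sgn (mkI _ _))
    rw [mul_left, Pi.mul_apply, arrow_apply]
    simp [mul_assoc]

@[simp] theorem sup_smul (g : Wr B (m + 1)) (a : Ix m) : sup (g • a) = g.right (sup a) :=
  sup_mkI _ _

theorem sgn_smul (g : Wr B (m + 1)) (a : Ix m) :
    sgn (g • a) = SgnHom.χ (g.left (g.right (sup a))) * sgn a := sgn_mkI _ _

theorem wr_smul_rev (g : Wr B (m + 1)) (a : Ix m) : g • a.rev = (g • a).rev :=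
  ix_ext (by simp) (by simp [sgn_smul])

theorem inr_smul_mkI (σ : Perm (Fin (m + 1))) (i : Fin (m + 1)) (s : ℤˣ) :
    (inr σ : Wr B (m + 1)) • mkI i s = mkI (σ i) s := ix_ext (by simp) (by simp [sgn_smul])

theorem wE_smul_of_ne {i : Fin (m + 1)} (b : B) {a : Ix m} (h : sup a ≠ i) : wE i b • a = a :=
  ix_ext (by simp [wE]) (by simp [sgn_smul, wE, Pi.mulSingle_eq_of_ne h])

theorem wE_smul_of_eq (b : B) (a : Ix m) :
    wE (sup a) b • a = mkI (sup a) (SgnHom.χ b * sgn a) :=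
  ix_ext (by simp [wE]) (by simp [sgn_smul, wE])

theorem wE_smul_one {i : Fin (m + 1)} {b : B} (hb : SgnHom.χ b = 1) (a : Ix m) : wE i b • a = a := by
  by_cases h : sup a = i
  · rw [← h, wE_smul_of_eq, hb, one_mul, mkI_sup_sgn]
  · exact wE_smul_of_ne b h

theorem smul_eq_iff {g : Wr B (m + 1)} {a b : Ix m} :
    g • a = b ↔ g.right (sup a) = sup b ∧ SgnHom.χ (g.left (sup b)) * sgn a = sgn b := by
  constructor
  · rintro rfl; exact ⟨by simp, by rw [sgn_smul, sup_smul]⟩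
  · rintro ⟨h1, h2⟩; exact ix_ext (by simpa) (by rw [sgn_smul, h1, h2])

theorem exists_signs {k : ℕ} (a b : Fin k → Ix m) (hb : Function.Injective (sup ∘ b)) :
    ∃ ν : Fin (m + 1) → B, (∀ i, SgnHom.χ (ν (sup (b i))) * sgn (a i) = sgn (b i)) := by
  classical
  refine ⟨fun x => if ∃ i, sup (b i) = x ∧ sgn (a i) ≠ sgn (b i) then SgnHom.g0 else 1, fun i => ?_⟩
  dsimp only
  by_cases h : sgn (a i) = sgn (b i)
  · rw [if_neg, map_one, one_mul, h]
    rintro ⟨j, h1, h2⟩
    exact h2 (by rw [hb h1, h])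
  · rw [if_pos ⟨i, rfl, h⟩, SgnHom.χ_g0]
    rcases Int.units_eq_one_or (sgn (a i)) with e | e <;>
      rcases Int.units_eq_one_or (sgn (b i)) with e' | e' <;> simp_all

theorem exists_wr {k : ℕ} (a b : Fin k → Ix m) (ha : Function.Injective (sup ∘ a))
    (hb : Function.Injective (sup ∘ b)) : ∃ γ : Wr B (m + 1), ∀ i, γ • a i = b i := by
  obtain ⟨σ, hσ⟩ := exists_perm_fin _ _ ha hb
  obtain ⟨ν, hν⟩ := exists_signs (B := B) a b hb
  exact ⟨⟨ν, σ⟩, fun i => smul_eq_iff.2 ⟨hσ i, hν i⟩⟩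

end wr

theorem sinj1 {m : ℕ} (a : Ix m) : Function.Injective (sup ∘ ![a]) :=
  Function.injective_of_subsingleton _

theorem sinj2 {m : ℕ} {a b : Ix m} (h : sup a ≠ sup b) : Function.Injective (sup ∘ ![a, b]) := by
  convert inj2 h using 1; ext1 i; fin_cases i <;> rfl

theorem sinj3 {m : ℕ} {a b c : Ix m} (h1 : sup a ≠ sup b) (h2 : sup a ≠ sup c)
    (h3 : sup b ≠ sup c) : Function.Injective (sup ∘ ![a, b, c]) := by
  convert inj3 h1 h2 h3 using 1; ext1 i; fin_cases i <;> rfl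

theorem sinj4 {m : ℕ} {a b c d : Ix m} (h1 : sup a ≠ sup b) (h2 : sup a ≠ sup c)
    (h3 : sup a ≠ sup d) (h4 : sup b ≠ sup c) (h5 : sup b ≠ sup d) (h6 : sup c ≠ sup d) :
    Function.Injective (sup ∘ ![a, b, c, d]) := by
  convert inj4 h1 h2 h3 h4 h5 h6 using 1; ext1 i; fin_cases i <;> rfl

/-! ### presentations -/

theorem Cov.inj_of_section {X : Type} {H : Type*} [Group H] {f : X → H} (c : Cov f) (φ : H →* c.G)
    (h : ∀ γ, c.θ (φ γ) = γ) (hgen : ∀ x, c.ev (FreeGroup.of x) ∈ φ.range) :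
    Function.Injective c.θ := by
  rw [injective_iff_map_eq_one]
  intro x hx
  obtain ⟨γ, rfl⟩ : x ∈ φ.range := c.top hgen ▸ mem_top x
  rw [h] at hx
  rw [hx, map_one]

theorem wr_hom_ext {B : Type} [CommGroup B] {n : ℕ} {G : Type*} [Group G] {φ ψ : Wr B n →* G}
    (h1 : ∀ σ, φ (inr σ) = ψ (inr σ)) (h2 : ∀ i b, φ (wE i b) = ψ (wE i b)) : φ = ψ :=
  hom_ext (MonoidHom.pi_ext h2) (MonoidHom.ext h1)

/-- the basic sign change -/
abbrev wZ {n : ℕ} (i : Fin n) : Wr (Multiplicative ℤ) n := wE i (Multiplicative.ofAdd 1)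

theorem wE_eq_zpow {n : ℕ} (i : Fin n) (b : Multiplicative ℤ) : wE i b = wZ i ^ b.toAdd := by
  rw [← wE_zpow, ← ofAdd_zsmul]; simp

theorem hasRels_wrZ {n : ℕ} {Y : Type} {g : Y → Perm (Fin n)} {r0 : ℕ} (hg : HasRels g r0)
    (htop : closure (Set.range g) = ⊤) {i0 j0 : Fin n} (hij : i0 ≠ j0) (l : List (Perm (Fin n)))
    (hl : ∀ σ ∈ l, σ i0 = i0) (hl' : ∀ σ : Perm (Fin n), σ i0 = i0 → σ ∈ closure {σ | σ ∈ l}) :
    ∃ f : Y ⊕ Unit → Wr (Multiplicative ℤ) n, HasRels f (r0 + l.length + 1) ∧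
      closure (Set.range f) = ⊤ := by
  set f : Y ⊕ Unit → Wr (Multiplicative ℤ) n := Sum.elim (fun y => inr (g y)) fun _ => wZ i0 with hf
  obtain ⟨S, hb⟩ := exists_sec (Γ := Perm (Fin n)) i0 fun r => ⟨swap i0 r, swap_apply_left _ _⟩
  have hc : ∀ r, S.c r i0 = r := fun r => by have := S.hc r; rwa [hb] at this
  obtain ⟨W, hW, c0⟩ := cost_hom (f := f) hg htop inr (fun y => FreeGroup.of (.inl y))
    (fun y => by simp [hf])
  set U : FreeGroup (Y ⊕ Unit) := FreeGroup.of (.inr ())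
  have hu : FreeGroup.lift f U = wZ i0 := by simp [U, hf]
  have huu : ∀ r, FreeGroup.lift f (S.tr W (fun _ => U) r) = wZ r := fun r => by
    rw [Sec.tr, map_mul, map_mul, map_inv, hW, hu, conj_wE, right_inr, hc]
  refine ⟨f, Cost.hasRels ?_, ?_⟩
  · have c1 := cost_cent (f := f) W l U fun σ hσ => by
      rw [hW, hu, Commute, SemiconjBy, ← mul_inv_eq_iff_eq_mul, conj_wE, right_inr, hl σ hσ]
    have c2 := cost_commute (f := f) (S.tr W (fun _ => U) i0) (S.tr W (fun _ => U) j0)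
      (by rw [huu, huu]; exact wE_commute _ _ _ _)
    refine ((c0.and c1).and c2).imp ?_
    rintro c ⟨⟨⟨ρ, hρ, hρg⟩, k1⟩, k2⟩
    have hρ' : (fun γ => c.ev (W γ)) = ρ := funext fun γ => (hρ γ).symm
    simp only [S.map_tr, hρ'] at k2
    have he : ∀ σ i, S.tr ρ (fun _ => c.ev U) (σ • i) = ρ σ * S.tr ρ (fun _ => c.ev U) i * (ρ σ)⁻¹ :=
      fun σ i => S.tr_smul (a := fun _ => c.ev U)
        (fun σ hσ => k1 ρ hρ σ (hl' σ (by rwa [hb] at hσ))) σ
    obtain ⟨φ, h1, h2⟩ := exists_wr_lift ρ (fun i => zpowersHom _ (S.tr ρ (fun _ => c.ev U) i))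
      (fun i j h x y => by
        obtain ⟨σ, s1, s2⟩ := RGD.exists_perm_two hij h
        have := SL2Pres.conj_commute (ρ σ) k2
        rw [← he, ← he, Perm.smul_def, Perm.smul_def, s1, s2] at this
        exact this.zpow_zpow _ _)
      (fun σ i b => by
        rw [zpowersHom_apply, zpowersHom_apply, ← Perm.smul_def σ i, he, conj_zpow])
    refine c.inj_of_section φ (fun γ => DFunLike.congr_fun (wr_hom_ext (φ := c.θ.comp φ)
      (ψ := MonoidHom.id _) (fun σ => ?_) fun i b => ?_) γ) ?_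
    · rw [MonoidHom.comp_apply, h1, hρ, c.comp, hW]; rfl
    · rw [MonoidHom.comp_apply, h2, zpowersHom_apply, map_zpow, ← hρ', ← S.map_tr c.ev W fun _ => U,
        c.comp, huu, wE_eq_zpow]; rfl
    · rintro (y | _)
      · exact ⟨inr (g y), by rw [h1, hρg]⟩
      · refine ⟨wZ i0, ?_⟩
        rw [h2, zpowersHom_apply, toAdd_ofAdd, zpow_one, ← hb i0]
        exact S.tr_base (a := fun _ => c.ev U) fun σ hσ => k1 ρ hρ σ (hl' σ (by rwa [hb] at hσ))
  · have h1 : ∀ σ, (inr σ : Wr (Multiplicative ℤ) n) ∈ closure (Set.range f) := fun σ => by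
      have : σ ∈ (closure (Set.range f)).comap inr := by
        refine (closure_le _).2 ?_ (htop ▸ mem_top σ)
        rintro _ ⟨y, rfl⟩; exact subset_closure ⟨.inl y, rfl⟩
      exact this
    refine eq_top_iff.2 fun γ _ => mem_of_parts (inl_mem fun i => ?_) (h1 _)
    rw [wE_eq_zpow, ← hc i, wZ, ← right_inr (φ := mulAutArrow) (N := Fin n → Multiplicative ℤ) (S.c i),
      ← conj_wE]
    exact zpow_mem (mul_mem (mul_mem (h1 _) (subset_closure ⟨.inr (), rfl⟩)) (inv_mem (h1 _))) _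

/-- a homomorphism from the group of signs -/
def unitsHom {G : Type*} [Group G] (x : G) (hx : x * x = 1) : ℤˣ →* G :=
  MonoidHom.mk' (fun s => if s = 1 then 1 else x) fun s t => by
    rcases Int.units_eq_one_or s with rfl | rfl <;> rcases Int.units_eq_one_or t with rfl | rfl <;>
      simp [hx]

@[simp] theorem unitsHom_neg {G : Type*} [Group G] (x : G) (hx : x * x = 1) :
    unitsHom x hx (-1) = x := by
  show (if (-1 : ℤˣ) = 1 then 1 else x) = x
  exact if_neg (by decide)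

theorem units_hom_ext {G : Type*} [Group G] {φ ψ : ℤˣ →* G} (h : φ (-1) = ψ (-1)) (s : ℤˣ) :
    φ s = ψ s := by
  rcases Int.units_eq_one_or s with rfl | rfl
  · simp
  · exact h

/-- even sign changes and even permutations -/
def WD (n : ℕ) : Subgroup (Wr ℤˣ n) where
  carrier := {g | ∏ i, g.left i = 1 ∧ sign g.right = 1}
  one_mem' := by simp
  mul_mem' := by
    rintro g h ⟨h1, h2⟩ ⟨h3, h4⟩
    refine ⟨?_, by simp [h2, h4]⟩
    simp only [mul_left, Pi.mul_apply, Finset.prod_mul_distrib, h1, arrow_apply, one_mul]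
    rw [Equiv.prod_comp g.right⁻¹ h.left, h3]
  inv_mem' := by
    rintro g ⟨h1, h2⟩
    refine ⟨?_, by simp [h2]⟩
    simp only [inv_left, arrow_apply, Pi.inv_apply, Finset.prod_inv_distrib]
    rw [Equiv.prod_comp g.right⁻¹⁻¹ g.left, h1, inv_one]

/-- a double sign change -/
def wD {n : ℕ} (i j : Fin n) : WD n := ⟨wE i (-1) * wE j (-1), by
  constructor
  · simp [wE, Finset.prod_mul_distrib]
  · simp [wE]⟩

/-- an even permutation -/
def pD (n : ℕ) : alternatingGroup (Fin n) →* WD n :=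
  (inr.comp (alternatingGroup (Fin n)).subtype).codRestrict _ fun σ => ⟨by simp, σ.2⟩

theorem conj_wD {n : ℕ} (g : WD n) (i j : Fin n) :
    g * wD i j * g⁻¹ = wD (g.1.right i) (g.1.right j) := by
  apply Subtype.ext
  change g.1 * (_ * _) * g.1⁻¹ = _ * _
  rw [← conj_wE, ← conj_wE]; group

theorem wE_neg_sq {n : ℕ} (i : Fin n) : wE i (-1 : ℤˣ) * wE i (-1) = 1 := by
  rw [← wE_mul]; simp [wE_one]

theorem wD_self {n : ℕ} (i : Fin n) : wD i i = 1 := Subtype.ext (wE_neg_sq i)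

theorem wD_comm {n : ℕ} (i j : Fin n) : wD i j = wD j i := Subtype.ext (wE_commute _ _ _ _).eq

theorem wD_mul {n : ℕ} (i j k : Fin n) : wD i j * wD j k = wD i k := Subtype.ext (by
  change (_ * _) * (_ * _) = _ * _
  rw [mul_assoc, ← mul_assoc (wE j _), wE_neg_sq, one_mul])

theorem memD_of_parts {n : ℕ} {H : Subgroup (WD n)} {g : WD n} {k : Fin n}
    (h1 : ∀ i, g.1.left i ≠ 1 → wD k i ∈ H) (h2 : pD n ⟨g.1.right, g.2.2⟩ ∈ H) : g ∈ H := by
  classical
  refine (mem_map_iff_mem (subtype_injective _)).1 (mem_of_parts (H := H.map (WD n).subtype) ?_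
    ⟨_, h2, rfl⟩)
  have : g.1.left = ∏ i, Pi.mulSingle k (g.1.left i) * Pi.mulSingle i (g.1.left i) := by
    rw [Finset.prod_mul_distrib, Finset.univ_prod_mulSingle]
    have := map_prod (MonoidHom.mulSingle (fun _ : Fin n => ℤˣ) k) g.1.left Finset.univ
    simp only [MonoidHom.mulSingle_apply] at this
    rw [← this, g.2.1, Pi.mulSingle_one, one_mul]
  change inl g.1.left ∈ _
  rw [this]
  refine prod_mem (S := (H.map (WD n).subtype).comap inl) fun i _ => ?_
  rcases Int.units_eq_one_or (g.1.left i) with e | e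
  · simp [e, one_mem]
  · exact ⟨_, h1 i (by rw [e]; decide), by rw [e, map_mul]; rfl⟩

theorem hasRels_WD {n : ℕ} (hn : 4 ≤ n) {Y : Type} {g : Y → alternatingGroup (Fin n)} {r0 : ℕ}
    (hg : HasRels g r0) (htop : closure (Set.range g) = ⊤) {i0 j0 : Fin n} (hij : i0 ≠ j0)
    (l : List (alternatingGroup (Fin n)))
    (hl : ∀ σ ∈ l, σ.1 i0 = i0 ∧ σ.1 j0 = j0 ∨ σ.1 i0 = j0 ∧ σ.1 j0 = i0)
    (hl' : ∀ σ : alternatingGroup (Fin n), σ.1 i0 = i0 ∧ σ.1 j0 = j0 ∨ σ.1 i0 = j0 ∧ σ.1 j0 = i0 →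
      σ ∈ closure {σ | σ ∈ l}) :
    ∃ f : Y ⊕ Unit → WD n, HasRels f (r0 + l.length + (1 + if n = 4 then 1 else 0)) ∧
      closure (Set.range f) = ⊤ := by
  set f : Y ⊕ Unit → WD n := Sum.elim (fun y => pD n (g y)) fun _ => wD i0 j0 with hf
  have hcard : 4 ≤ Fintype.card (Fin n) := by simpa
  obtain ⟨S, hb⟩ := exists_sec (Γ := alternatingGroup (Fin n)) (rt hij) fun r => by
    obtain ⟨σ, s1, s2, s3⟩ := exists_even2 hcard hij r.2
    exact ⟨⟨σ, s1⟩, Subtype.ext (Prod.ext s2 s3)⟩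
  have hc : ∀ r, S.c r • rt hij = r := fun r => by have := S.hc r; rwa [hb] at this
  obtain ⟨W, hW, c0⟩ := cost_hom (f := f) hg htop (pD n) (fun y => FreeGroup.of (.inl y))
    (fun y => by simp [hf])
  set U : FreeGroup (Y ⊕ Unit) := FreeGroup.of (.inr ())
  have hu : FreeGroup.lift f U = wD i0 j0 := by simp [U, hf]
  have huu : ∀ r, FreeGroup.lift f (S.tr W (fun _ => U) r) = wD r.1.1 r.1.2 := fun r => by
    rw [Sec.tr, map_mul, map_mul, map_inv, hW, hu, conj_wD]
    conv_rhs => rw [← hc r]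
    rfl
  obtain ⟨k0, hk⟩ := exists_not_mem [i0, j0] (by simp; omega)
  simp only [List.mem_cons, List.not_mem_nil, or_false, not_or] at hk
  have hik : i0 ≠ k0 := Ne.symm hk.1
  have hjk : j0 ≠ k0 := Ne.symm hk.2
  refine ⟨f, Cost.hasRels ?_, ?_⟩
  · have c1 := cost_cent (f := f) W l U fun σ hσ => by
      rw [hW, hu, Commute, SemiconjBy, ← mul_inv_eq_iff_eq_mul, conj_wD]
      change wD (σ.1 i0) (σ.1 j0) = _
      rcases hl σ hσ with ⟨e1, e2⟩ | ⟨e1, e2⟩ <;> rw [e1, e2]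
      exact wD_comm _ _
    have c2 := cost_eq (f := f) (S.tr W (fun _ => U) (rt hij) * S.tr W (fun _ => U) (rt hjk))
      (S.tr W (fun _ => U) (rt hik)) (by rw [map_mul, huu, huu, huu, wD_mul])
    have c3 : Cost f (if n = 4 then 1 else 0) fun c => n = 4 → c.ev U * c.ev U = 1 := by
      split_ifs with h
      · exact (cost_one (U * U) (by
          rw [map_mul, hu]; nth_rewrite 2 [wD_comm]; rw [wD_mul, wD_self])).imp
          fun c hc _ => by rwa [map_mul] at hc
      · exact cost_true fun c h' => absurd h' h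
    refine ((c0.and c1).and (c2.and c3)).imp ?_
    rintro c ⟨⟨⟨ρ, hρ, hρg⟩, k1⟩, k2, k3⟩
    have hρ' : (fun γ => c.ev (W γ)) = ρ := funext fun γ => (hρ γ).symm
    simp only [map_mul, S.map_tr, hρ'] at k2
    set w := S.tr ρ (fun _ => c.ev U) with hw
    have hst : ∀ σ : alternatingGroup (Fin n), σ • rt hij = rt hij → Commute (ρ σ) (c.ev U) :=
      fun σ hσ => k1 ρ hρ σ (hl' σ (Or.inl ⟨congrArg (·.1.1) hσ, congrArg (·.1.2) hσ⟩))
    have he : ∀ σ r, w (σ • r) = ρ σ * w r * (ρ σ)⁻¹ := fun σ i =>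
      S.tr_smul (a := fun _ => c.ev U) (fun σ hσ => hst σ (by rwa [hb] at hσ)) σ
    have h0 : w (rt hij) = c.ev U := by
      rw [← hb (rt hij)]; exact S.tr_base (a := fun _ => c.ev U) fun σ hσ => hst σ (by rwa [hb] at hσ)
    have sy : ∀ a b (h : a ≠ b), w (rt h.symm) = w (rt h) := fun a b h => by
      obtain ⟨σ, s1, s2, s3⟩ := exists_even2 hcard hij hij.symm
      have e1 : w (rt hij.symm) = w (rt hij) := by
        rw [show rt hij.symm = (⟨σ, s1⟩ : alternatingGroup _) • rt hij from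
          Subtype.ext (Prod.ext s2.symm s3.symm), he, h0,
          (k1 ρ hρ _ (hl' ⟨σ, s1⟩ (Or.inr ⟨s2, s3⟩))).eq, mul_inv_cancel_right]
      have e2 := he (S.c (rt h)) (rt hij.symm)
      rw [e1, ← he, hc] at e2
      rw [← e2]; congr 1
      exact Subtype.ext (Prod.ext (congrArg (·.1.2) (hc (rt h))).symm
        (congrArg (·.1.1) (hc (rt h))).symm)
    have t1 : ∀ σ : Perm (Fin n), sign σ = 1 → ∀ a b d (h1 : a ≠ b) (h2 : a ≠ d) (h3 : b ≠ d),
        σ i0 = a → σ j0 = b → σ k0 = d → w (rt h1) * w (rt h3) = w (rt h2) := by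
      rintro σ s _ _ _ _ _ _ rfl rfl rfl
      have := congrArg (fun x => ρ ⟨σ, s⟩ * x * (ρ ⟨σ, s⟩)⁻¹) k2
      simp only [← conj_mul, ← he] at this
      exact this
    have sq : ∀ r, w r * w r = 1 := fun r => by
      rw [← hc r, he, conj_mul, h0]
      by_cases h4 : n = 4
      · simp [k3 h4]
      · obtain ⟨σ, s, s1, s2, s3⟩ := exists_even3 (by simp; omega) hij hik hjk hik.symm hjk.symm hij
        obtain ⟨τ, t, t2, t3, t4⟩ := exists_even3 (by simp; omega) hij hik hjk hjk.symm hik.symm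
          hij.symm
        have e1 := t1 σ s _ _ _ hik.symm hjk.symm hij s1 s2 s3
        have e2 := t1 τ t _ _ _ hjk.symm hik.symm hij.symm t2 t3 t4
        rw [← e1, sy _ _ hij, h0, mul_assoc, mul_eq_left] at e2
        simp [e2]
    have inv : ∀ r, (w r)⁻¹ = w r := fun r => inv_eq_of_mul_eq_one_right (sq r)
    have t2 : ∀ a b d (h1 : a ≠ b) (h2 : a ≠ d) (h3 : b ≠ d), w (rt h1) * w (rt h3) = w (rt h2) := by
      intro a b d h1 h2 h3
      obtain ⟨σ, s1, s2, s3⟩ := exists_perm3 hij hik hjk h1 h2 h3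
      by_cases s : sign σ = 1
      · exact t1 σ s _ _ _ _ _ _ s1 s2 s3
      · have := congrArg (·⁻¹) (t1 _ (sign_swap_mul s h2) d b a h3.symm h2.symm h1.symm
          (by simp [s1]) (by simp [s2, swap_apply_of_ne_of_ne h1.symm h3]) (by simp [s3]))
        simpa only [mul_inv_rev, inv, sy _ _ h1, sy _ _ h2, sy _ _ h3] using this
    let ww : Fin n → Fin n → c.G := fun a b => if h : a = b then 1 else w (rt h)
    have w1 : ∀ a b, ww a b = ww b a := fun a b => by
      by_cases h : a = b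
      · rw [h]
      · simp only [ww, dif_neg h, dif_neg (Ne.symm h)]; exact (sy _ _ h).symm
    have w2 : ∀ a b d, ww a b * ww b d = ww a d := fun a b d => by
      by_cases h1 : a = b
      · simp [ww, h1]
      by_cases h3 : b = d
      · simp [ww, h3]
      by_cases h2 : a = d
      · subst h2; rw [w1 b]; simp [ww, h1, sq]
      · simp only [ww, dif_neg h1, dif_neg h2, dif_neg h3]; exact t2 _ _ _ _ _ _
    have w3 : ∀ a, ww a a = 1 := fun a => dif_pos rfl
    have w4 : ∀ a b, ww a b * ww a b = 1 := fun a b => by rw [w1 a, ← w3 b, ← w2 b a b, w1 a]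
    have w5 : ∀ a b, Commute (ww i0 a) (ww i0 b) := fun a b => by
      rw [Commute, SemiconjBy, w1 i0 a, w2, w1 i0 b, w1 a i0, w2, w1]
    have w6 : ∀ (σ : alternatingGroup (Fin n)) a b,
        ρ σ * ww a b * (ρ σ)⁻¹ = ww (σ.1 a) (σ.1 b) := fun σ a b => by
      by_cases h : a = b
      · simp [h, w3]
      · simp only [ww, dif_neg h, dif_neg (σ.1.injective.ne h)]; exact (he _ _).symm
    have hcm : Pairwise fun i j => ∀ x y,
        Commute (unitsHom _ (w4 i0 i) x) (unitsHom _ (w4 i0 j) y) := fun i j _ x y => by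
      rcases Int.units_eq_one_or x with rfl | rfl <;> rcases Int.units_eq_one_or y with rfl | rfl <;>
        simp [w5]
    set fN := MonoidHom.noncommPiCoprod _ hcm with hfN
    have n1 : ∀ i s, fN (Pi.mulSingle i s) = unitsHom _ (w4 i0 i) s := fun i s =>
      MonoidHom.noncommPiCoprod_mulSingle _ _ _
    have n2 : ∀ (σ : alternatingGroup (Fin n)) ν, ρ σ * fN ν * (ρ σ)⁻¹ =
        fN ((mulAutArrow σ.1 : MulAut _) ν * Pi.mulSingle (σ.1 i0) (∏ i, ν i)) := fun σ ν => by
      refine DFunLike.congr_fun (MonoidHom.pi_ext (f := (MulAut.conj (ρ σ)).toMonoidHom.comp fN)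
        (g := fN.comp ((mulAutArrow σ.1 : MulAut _).toMonoidHom *
          (MonoidHom.mulSingle (fun _ => ℤˣ) (σ.1 i0)).comp
            (∏ i, Pi.evalMonoidHom (fun _ => ℤˣ) i))) fun i s => ?_) ν |>.trans (by simp)
      rcases Int.units_eq_one_or s with rfl | rfl
      · simp
      · simp [n1, w6, arrow_single]
        rw [w1 (σ.1 i0), w1 i0, w2]
    let φ : WD n →* c.G := MonoidHom.mk' (fun γ => fN γ.1.left * ρ ⟨γ.1.right, γ.2.2⟩) fun γ δ => by
      have := n2 ⟨γ.1.right, γ.2.2⟩ δ.1.left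
      rw [δ.2.1, Pi.mulSingle_one, mul_one] at this
      change fN (_ * _) * ρ (⟨γ.1.right, γ.2.2⟩ * ⟨δ.1.right, δ.2.2⟩) = _
      rw [map_mul, map_mul, ← this]; group
    have p1 : ∀ σ, φ (pD n σ) = ρ σ := fun σ => by
      change fN 1 * _ = _
      rw [map_one, one_mul]; rfl
    have p2 : ∀ i, φ (wD i0 i) = ww i0 i := fun i => by
      change fN (Pi.mulSingle i0 (-1) * Pi.mulSingle i (-1)) * ρ 1 = _
      rw [map_mul, n1, n1, unitsHom_neg, unitsHom_neg, w3, map_one, one_mul, mul_one]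
    refine c.inj_of_section φ (fun γ => ?_) ?_
    · refine memD_of_parts (H := (c.θ.comp φ).eqLocus (MonoidHom.id _)) (k := i0) (fun i _ => ?_) ?_
      · change c.θ (φ _) = _
        by_cases h : i0 = i
        · rw [← h, wD_self, map_one, map_one]; rfl
        · rw [p2]; simp only [ww, dif_neg h]
          rw [hw, ← hρ', ← S.map_tr c.ev W fun _ => U, c.comp, huu]; rfl
      · change c.θ (φ _) = _
        rw [p1, hρ, c.comp, hW]; rfl
    · rintro (y | _)
      · exact ⟨_, by rw [p1, hρg]⟩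
      · exact ⟨wD i0 j0, by rw [p2]; simp only [ww, dif_neg hij]; exact h0⟩
  · have h1 : ∀ σ, pD n σ ∈ closure (Set.range f) := fun σ => by
      have : σ ∈ (closure (Set.range f)).comap (pD n) := by
        refine (closure_le _).2 ?_ (htop ▸ mem_top σ)
        rintro _ ⟨y, rfl⟩; exact subset_closure ⟨.inl y, rfl⟩
      exact this
    refine eq_top_iff.2 fun γ _ => memD_of_parts (k := i0) (fun i _ => ?_) (h1 _)
    by_cases h : i0 = i
    · rw [← h, wD_self]; exact one_mem _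
    · obtain ⟨σ, s1, s2, s3⟩ := exists_even2 hcard hij h
      have := conj_wD (pD n ⟨σ, s1⟩) i0 j0
      change _ = wD (σ i0) (σ j0) at this
      rw [s2, s3] at this
      rw [← this]
      exact mul_mem (mul_mem (h1 _) (subset_closure ⟨.inr (), rfl⟩)) (inv_mem (h1 _))

end Cfsg.Agent.Pres
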